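import Mathlib

/-!
Automorphisms of odd order of a nonabelian `2`-group generated by `a`, `b` with `⟨a⟩` of index two.
-/

set_option autoImplicit false

namespace Cfsg.Agent.Lib.Pronormal2

variable {Q : Type*} [Group Q] [Finite Q]

/-- A cyclic subgroup of index two. -/
def CycTwo (C : Subgroup Q) : Prop := IsCyclic C ∧ C.index = 2

theorem eq_one_of_fix_cycTwo (hQ : IsPGroup 2 Q) {C : Subgroup Q} (hC : CycTwo C) {φ : MulAut Q}
    (hφ : Odd (orderOf φ)) (hfix : C.map φ.toMonoidHom = C) : φ = 1 := by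
  obtain ⟨hcyc, hidx⟩ := hC
  have hmem : ∀ c ∈ C, φ c ∈ C := fun c hc => hfix ▸ ⟨c, hc, rfl⟩
  -- the restriction to `C`
  let ψ : MulAut C :=
    { toFun := fun c => ⟨φ c, hmem c c.2⟩
      invFun := fun c => ⟨φ.symm c, by
        obtain ⟨d, hd, e⟩ : (c : Q) ∈ C.map φ.toMonoidHom := by rw [hfix]; exact c.2
        rw [← e]
        simpa using hd⟩
      left_inv := fun c => by simp
      right_inv := fun c => by simp
      map_mul' := fun c d => by ext; simp }
  have hpow : ∀ (k : ℕ) (c : C), ((ψ ^ k) c : Q) = (φ ^ k) c := by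
    intro k
    induction k with
    | zero => simp
    | succ k ih =>
      intro c
      rw [pow_succ', pow_succ', MulAut.mul_apply, MulAut.mul_apply, ← ih]
      rfl
  have hψn : ψ ^ orderOf φ = 1 := by
    ext c; rw [hpow, pow_orderOf_eq_one]; rfl
  have hψ : ψ = 1 := by
    obtain ⟨m, hm⟩ := (hQ.to_subgroup C).exists_card_eq
    have hc : ψ ^ Nat.totient (2 ^ m) = 1 := by
      rw [← hm, ← IsCyclic.card_mulAut C]; exact pow_card_eq_one'
    have hcop : Nat.gcd (orderOf φ) (Nat.totient (2 ^ m)) = 1 := by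
      rcases Nat.eq_zero_or_pos m with rfl | hm0
      · simp
      · rw [Nat.totient_prime_pow Nat.prime_two hm0]
        simpa using Nat.Coprime.pow_right (m - 1) (Nat.coprime_two_right.2 hφ)
    have := (pow_gcd_eq_one (a := ψ)).2 ⟨hψn, hc⟩
    rwa [hcop, pow_one] at this
  have hφC : ∀ c ∈ C, φ c = c := fun c hc => congrArg Subtype.val (DFunLike.congr_fun hψ ⟨c, hc⟩)
  have hb : ∀ b : Q, b ∉ C → φ b = b := by
    intro b hb
    have hφb : φ b ∉ C := by
      rw [← hfix]
      rintro ⟨c, hc, e⟩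
      exact hb (φ.injective e ▸ hc)
    have hkC : b⁻¹ * φ b ∈ C :=
      (Subgroup.mul_mem_iff_of_index_two hidx).2 (iff_of_false (fun h => hb (inv_mem_iff.1 h)) hφb)
    set k := b⁻¹ * φ b with hk
    have hiter : ∀ i : ℕ, (φ ^ i) b = b * k ^ i := by
      intro i
      induction i with
      | zero => simp
      | succ i ih =>
        rw [pow_succ', MulAut.mul_apply, ih, map_mul, map_pow, hφC k hkC, pow_succ',
          show φ b = b * k by rw [hk, mul_inv_cancel_left], mul_assoc]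
    have h1 := hiter (orderOf φ)
    rw [pow_orderOf_eq_one, MulAut.one_apply, left_eq_mul] at h1
    obtain ⟨j, hj⟩ := hQ k
    have := (pow_gcd_eq_one (a := k)).2 ⟨h1, hj⟩
    rw [Nat.Coprime.pow_right j (Nat.coprime_two_right.2 hφ), pow_one, hk] at this
    exact inv_mul_eq_one.1 this |>.symm
  ext b
  by_cases h : b ∈ C
  · exact hφC b h
  · exact hb b h

theorem cycTwo_map {C : Subgroup Q} (hC : CycTwo C) (φ : MulAut Q) : CycTwo (C.map φ.toMonoidHom) := by
  haveI := hC.1
  exact ⟨isCyclic_of_surjective (φ.toMonoidHom.subgroupMap C) (MonoidHom.subgroupMap_surjective _ _),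
    (Subgroup.index_map_equiv C φ).trans hC.2⟩

theorem cycTwo_subset_three {a b : Q} (hab : Subgroup.closure {a, b} = ⊤) {C₁ C₂ : Subgroup Q}
    (h1 : C₁.index = 2) (h2 : C₂.index = 2) (ha : a ∈ C₁ ↔ a ∈ C₂) (hb : b ∈ C₁ ↔ b ∈ C₂) : C₁ = C₂ := by
  ext x
  have hx : x ∈ Subgroup.closure {a, b} := hab ▸ Subgroup.mem_top x
  induction hx using Subgroup.closure_induction with
  | mem y hy => rcases hy with rfl | rfl <;> assumption
  | one => simp
  | mul y z _ _ hy hz =>
    exact (Subgroup.mul_mem_iff_of_index_two h1).trans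
      ((iff_congr hy hz).trans (Subgroup.mul_mem_iff_of_index_two h2).symm)
  | inv y _ hy => simpa using hy

set_option synthInstance.maxSize 4096 in
theorem bool_four : ∀ x y z w : Bool × Bool, x ≠ (true, true) → y ≠ (true, true) → z ≠ (true, true) →
    w ≠ (true, true) → x ≠ y → x ≠ z → y ≠ z → w = x ∨ w = y ∨ w = z := by decide

/-- Four cyclic subgroups of index two are not pairwise different. -/
theorem cycTwo_four {a b : Q} (hab : Subgroup.closure {a, b} = ⊤) {C₁ C₂ C₃ C₄ : Subgroup Q}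
    (h1 : C₁.index = 2) (h2 : C₂.index = 2) (h3 : C₃.index = 2) (h4 : C₄.index = 2) (h12 : C₁ ≠ C₂) (h13 : C₁ ≠ C₃)
    (h23 : C₂ ≠ C₃) : C₄ = C₁ ∨ C₄ = C₂ ∨ C₄ = C₃ := by
  classical
  have hne : ∀ {C : Subgroup Q}, C.index = 2 → ¬ (a ∈ C ∧ b ∈ C) := fun {C} hC h => by
    have : C = ⊤ := top_le_iff.1 (hab ▸ (Subgroup.closure_le _).2 (by
      rintro y (rfl | rfl); exacts [h.1, h.2]))
    rw [this] at hC; simp at hC
  let f : Subgroup Q → Bool × Bool := fun C => (decide (a ∈ C), decide (b ∈ C))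
  have hf : ∀ {C D : Subgroup Q}, C.index = 2 → D.index = 2 → f C = f D → C = D := fun hC hD h =>
    cycTwo_subset_three hab hC hD (decide_eq_decide.1 (congrArg Prod.fst h))
      (decide_eq_decide.1 (congrArg Prod.snd h))
  have hn : ∀ {C : Subgroup Q}, C.index = 2 → f C ≠ (true, true) := fun hC h =>
    hne hC ⟨of_decide_eq_true (congrArg Prod.fst h), of_decide_eq_true (congrArg Prod.snd h)⟩
  exact (bool_four _ _ _ _ (hn h1) (hn h2) (hn h3) (hn h4) (h12 ∘ hf h1 h2) (h13 ∘ hf h1 h3)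
    (h23 ∘ hf h2 h3)).imp (hf h4 h1) (Or.imp (hf h4 h2) (hf h4 h3))

/-- A nontrivial automorphism of odd order moves `C` round a triangle of cyclic subgroups of index two. -/
theorem three_cycle (hQ : IsPGroup 2 Q) {a b : Q} (hab : Subgroup.closure {a, b} = ⊤) {φ : MulAut Q}
    (hφ : Odd (orderOf φ)) (hne : φ ≠ 1) {C : Subgroup Q} (hC : CycTwo C) :
    let D := C.map φ.toMonoidHom
    let E := D.map φ.toMonoidHom
    C ≠ D ∧ C ≠ E ∧ D ≠ E ∧ E.map φ.toMonoidHom = C ∧
      ∀ X : Subgroup Q, X.index = 2 → X = C ∨ X = D ∨ X = E := by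
  intro D E
  have hD : CycTwo D := cycTwo_map hC φ
  have hE : CycTwo E := cycTwo_map hD φ
  have h1 : C ≠ D := fun h => hne (eq_one_of_fix_cycTwo hQ hC hφ h.symm)
  have h2 : D ≠ E := fun h => hne (eq_one_of_fix_cycTwo hQ hD hφ h.symm)
  have h3 : C ≠ E := by
    intro h
    have hφ2 : φ ^ 2 = 1 := by
      refine eq_one_of_fix_cycTwo hQ hC ?_ ?_
      · exact hφ.of_dvd_nat (orderOf_pow_dvd 2)
      · rw [pow_two]
        conv_rhs => rw [h]
        rw [show E = (C.map φ.toMonoidHom).map φ.toMonoidHom from rfl, Subgroup.map_map]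
        rfl
    have := orderOf_dvd_of_pow_eq_one hφ2
    rcases (Nat.dvd_prime Nat.prime_two).1 this with h' | h'
    · exact hne (orderOf_eq_one_iff.1 h')
    · rw [h'] at hφ; exact absurd hφ (by decide)
  have hall : ∀ X : Subgroup Q, X.index = 2 → X = C ∨ X = D ∨ X = E := fun X hX =>
    cycTwo_four hab hC.2 hD.2 hE.2 hX h1 h3 h2
  refine ⟨h1, h3, h2, ?_, hall⟩
  rcases hall _ (cycTwo_map hE φ).2 with h | h | h
  · exact h
  · exact absurd (Subgroup.map_injective (f := φ.toMonoidHom) φ.injective h) h3.symm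
  · exact absurd (Subgroup.map_injective (f := φ.toMonoidHom) φ.injective h) h2.symm

/-- Two nontrivial automorphisms of odd order differ by one fixing `C`. -/
theorem exists_pow_same (hQ : IsPGroup 2 Q) {a b : Q} (hab : Subgroup.closure {a, b} = ⊤) {φ ψ : MulAut Q}
    (hψ : Odd (orderOf ψ)) (hne : ψ ≠ 1) {C : Subgroup Q} (hC : CycTwo C) :
    ∃ i : ℕ, C.map ((ψ ^ i * φ : MulAut Q)).toMonoidHom = C := by
  obtain ⟨-, -, -, hcl, hall⟩ := three_cycle hQ hab hψ hne hC
  have e : ∀ (α β : MulAut Q) (X : Subgroup Q),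
      X.map (α * β : MulAut Q).toMonoidHom = (X.map β.toMonoidHom).map α.toMonoidHom := fun α β X => by
    rw [Subgroup.map_map]; rfl
  rcases hall _ (cycTwo_map hC φ).2 with h | h | h
  · exact ⟨0, by rw [e, h, pow_zero]; exact Subgroup.map_id C⟩
  · exact ⟨2, by rw [e, h, pow_two, e]; exact hcl⟩
  · exact ⟨1, by rw [e, h, pow_one]; exact hcl⟩

/-- An automorphism of `2`-power order commuting on cyclic subgroups with a three-cycle fixes them. -/
theorem fix_of_comm (hQ : IsPGroup 2 Q) {a b : Q} (hab : Subgroup.closure {a, b} = ⊤) {φ σ : MulAut Q}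
    (hφ : Odd (orderOf φ)) (hne : φ ≠ 1) {C : Subgroup Q} (hC : CycTwo C) {m : ℕ} (hσ : σ ^ 2 ^ m = 1)
    (hcomm : ∀ X, CycTwo X → (X.map φ.toMonoidHom).map σ.toMonoidHom = (X.map σ.toMonoidHom).map φ.toMonoidHom) :
    C.map σ.toMonoidHom = C := by
  obtain ⟨h1, h3, h2, hcl, hall⟩ := three_cycle hQ hab hφ hne hC
  set D := C.map φ.toMonoidHom with hD
  set E := D.map φ.toMonoidHom with hE
  have hCD : CycTwo D := cycTwo_map hC φ
  have e : ∀ (α β : MulAut Q) (X : Subgroup Q),
      X.map (α * β : MulAut Q).toMonoidHom = (X.map β.toMonoidHom).map α.toMonoidHom := fun α β X => by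
    rw [Subgroup.map_map]; rfl
  let S : Subgroup (MulAut Q) :=
    { carrier := {τ | C.map τ.toMonoidHom = C}
      one_mem' := Subgroup.map_id C
      mul_mem' := fun {α β} ha hb => by
        simp only [Set.mem_setOf_eq] at ha hb ⊢
        rw [e, hb, ha]
      inv_mem' := fun {α} ha => by
        simp only [Set.mem_setOf_eq] at ha ⊢
        conv_lhs => rw [← ha]
        rw [← e, inv_mul_cancel]
        exact Subgroup.map_id C }
  have h3' : σ ^ 3 ∈ S := by
    show C.map (σ ^ 3 : MulAut Q).toMonoidHom = C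
    rw [show σ ^ 3 = σ * (σ * σ) by rw [pow_succ', pow_two], e, e]
    rcases hall _ (cycTwo_map hC σ).2 with h | h | h
    · rw [h, h, h]
    · have hσD : D.map σ.toMonoidHom = E := by rw [hD, hcomm C hC, h]
      have hσE : E.map σ.toMonoidHom = C := by rw [hE, hcomm D hCD, hσD]; exact hcl
      rw [h, hσD, hσE]
    · have hσD : D.map σ.toMonoidHom = C := by rw [hD, hcomm C hC, h]; exact hcl
      have hσE : E.map σ.toMonoidHom = D := by rw [hE, hcomm D hCD, hσD]
      rw [h, hσE, hσD]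
  have h2m : σ ^ 2 ^ m ∈ S := by rw [hσ]; exact S.one_mem
  have hnd : ¬ 3 ∣ 2 ^ m := fun h => by have := Nat.prime_three.dvd_of_dvd_pow h; omega
  have hr : σ ^ (2 ^ m % 3) ∈ S := by
    have := S.mul_mem (S.inv_mem (S.pow_mem h3' (2 ^ m / 3))) h2m
    rwa [← pow_mul, inv_mul_eq_iff_eq_mul.2 (show σ ^ 2 ^ m = σ ^ (3 * (2 ^ m / 3)) * σ ^ (2 ^ m % 3) by
      rw [← pow_add, Nat.div_add_mod])] at this
  show σ ∈ S
  rcases (show 2 ^ m % 3 = 1 ∨ 2 ^ m % 3 = 2 by omega) with h | h
  · rwa [h, pow_one] at hr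
  · rw [h] at hr
    have := S.mul_mem (S.inv_mem hr) h3'
    rwa [show (σ ^ 2)⁻¹ * σ ^ 3 = σ by rw [pow_succ σ 2, inv_mul_cancel_left]] at this

end Cfsg.Agent.Lib.Pronormal2
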