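import Cfsg.Agent.Lib.Pronormal2.Core
import Cfsg.Agent.Lib.Pronormal2.TwoAut

/-!
Sylow `2`-subgroups of `GL₂(q)`, `q` odd.
-/

set_option autoImplicit false
set_option linter.unusedSectionVars false

namespace Cfsg.Agent.Lib.Pronormal2

open Matrix Cfsg.Agent.Lib.Classical
open scoped MatrixGroups

universe u

variable {F : Type u} [Field F] [Fintype F]

/-- What commutes with a non-scalar matrix commutes. -/
theorem comm_of_comm {x a b : Matrix (Fin 2) (Fin 2) F}
    (hx : ¬ (x 0 1 = 0 ∧ x 1 0 = 0 ∧ x 0 0 = x 1 1)) (ha : a * x = x * a) (hb : b * x = x * b) :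
    a * b = b * a := by
  have a00 := congrFun (congrFun ha 0) 0
  have a01 := congrFun (congrFun ha 0) 1
  have a10 := congrFun (congrFun ha 1) 0
  have b00 := congrFun (congrFun hb 0) 0
  have b01 := congrFun (congrFun hb 0) 1
  have b10 := congrFun (congrFun hb 1) 0
  simp [Matrix.mul_apply, Fin.sum_univ_two] at a00 a01 a10 b00 b01 b10
  have key : ∀ t : F, t ≠ 0 → (t = x 0 1 ∨ t = x 1 0 ∨ t = x 0 0 - x 1 1) →
      (a 0 1 * b 1 0 = b 0 1 * a 1 0) ∧ (a 0 1 * (b 0 0 - b 1 1) = b 0 1 * (a 0 0 - a 1 1)) ∧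
      (a 1 0 * (b 0 0 - b 1 1) = b 1 0 * (a 0 0 - a 1 1)) := by
    intro t ht h
    refine ⟨?_, ?_, ?_⟩ <;> refine mul_left_cancel₀ ht ?_ <;> rcases h with rfl | rfl | rfl <;> grobner
  obtain ⟨k1, k2, k3⟩ : (a 0 1 * b 1 0 = b 0 1 * a 1 0) ∧ (a 0 1 * (b 0 0 - b 1 1) = b 0 1 * (a 0 0 - a 1 1)) ∧
      (a 1 0 * (b 0 0 - b 1 1) = b 1 0 * (a 0 0 - a 1 1)) := by
    by_cases h1 : x 0 1 = 0
    · by_cases h2 : x 1 0 = 0
      · exact key _ (sub_ne_zero.2 fun h3 => hx ⟨h1, h2, h3⟩) (Or.inr (Or.inr rfl))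
      · exact key _ h2 (Or.inr (Or.inl rfl))
    · exact key _ h1 (Or.inl rfl)
  ext i j
  fin_cases i <;> fin_cases j <;> simp [Matrix.mul_apply, Fin.sum_univ_two]
  · linear_combination k1
  · linear_combination -k2
  · linear_combination k3
  · linear_combination -k1

theorem exists_scalar_of_center {z : GL (Fin 2) F} (hz : z ∈ Subgroup.center (GL (Fin 2) F)) :
    ∃ r : Fˣ, z = GeneralLinearGroup.scalar (Fin 2) r := by
  rw [GeneralLinearGroup.center_eq_range_scalar] at hz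
  obtain ⟨r, rfl⟩ := hz
  exact ⟨r, rfl⟩

theorem central_of_commute {a b x : GL (Fin 2) F} (hab : a * b ≠ b * a) (ha : a * x = x * a)
    (hb : b * x = x * b) : x ∈ Subgroup.center (GL (Fin 2) F) := by
  by_cases hx : ((x : Matrix (Fin 2) (Fin 2) F) 0 1 = 0 ∧ (x : Matrix (Fin 2) (Fin 2) F) 1 0 = 0 ∧
      (x : Matrix (Fin 2) (Fin 2) F) 0 0 = (x : Matrix (Fin 2) (Fin 2) F) 1 1)
  · refine Subgroup.mem_center_iff.2 fun y => Units.ext ?_
    obtain ⟨h1, h2, h3⟩ := hx
    rw [Units.val_mul, Units.val_mul]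
    ext i j
    fin_cases i <;> fin_cases j <;> simp [Matrix.mul_apply, Fin.sum_univ_two, h1, h2, h3, mul_comm]
  · exact absurd (Units.ext (comm_of_comm hx (congrArg Units.val ha) (congrArg Units.val hb))) hab

theorem det_scalar_two (r : Fˣ) :
    GeneralLinearGroup.det (GeneralLinearGroup.scalar (Fin 2) r) = r * r := by
  ext
  simp [sq]

theorem sq_eq_one_of_center_slK {z : GL (Fin 2) F} (hz : z ∈ Subgroup.center (GL (Fin 2) F))
    (hd : z ∈ slK F (Fin 2)) : z * z = 1 := by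
  obtain ⟨r, rfl⟩ := exists_scalar_of_center hz
  rw [MonoidHom.mem_ker, det_scalar_two] at hd
  rw [← map_mul, hd, map_one]

theorem slK_eq : slK F (Fin 2) = (SpecialLinearGroup.toGL : SL(2, F) →* GL (Fin 2) F).range :=
  det_ker_eq_range_toGL

theorem toGL_mem_slK (g : SL(2, F)) : SpecialLinearGroup.toGL g ∈ slK F (Fin 2) := by
  rw [slK_eq]; exact ⟨g, rfl⟩

theorem exists_sylow_SL (S : Sylow 2 (GL (Fin 2) F)) :
    ∃ P : Sylow 2 (SL(2, F)), ∀ g : SL(2, F),
      g ∈ (P : Subgroup (SL(2, F))) ↔ SpecialLinearGroup.toGL g ∈ (S : Subgroup (GL (Fin 2) F)) := by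
  haveI : Fact (Nat.Prime 2) := ⟨Nat.prime_two⟩
  have hrange := slK_eq (F := F)
  let P₀ := (S : Subgroup (GL (Fin 2) F)).comap (SpecialLinearGroup.toGL : SL(2, F) →* GL (Fin 2) F)
  have hcard : ∀ R : Subgroup (GL (Fin 2) F),
      Nat.card (R.comap (SpecialLinearGroup.toGL : SL(2, F) →* GL (Fin 2) F)) =
        Nat.card (R ⊓ slK F (Fin 2) : Subgroup (GL (Fin 2) F)) := by
    intro R
    rw [← Subgroup.card_map_of_injective (K := R.comap _) toGL_injective, Subgroup.map_comap_eq,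
      inf_comm, ← hrange]
  refine ⟨⟨P₀, S.2.comap_of_injective _ toGL_injective, fun {Q} hQ hPQ => ?_⟩, fun g => Iff.rfl⟩
  refine (Subgroup.eq_of_le_of_card_ge hPQ ?_).symm
  obtain ⟨S', hS'⟩ := (hQ.map (SpecialLinearGroup.toGL : SL(2, F) →* GL (Fin 2) F)).exists_le_sylow
  obtain ⟨g, hg⟩ := exists_cjg S S'
  calc Nat.card Q ≤ Nat.card ((S' : Subgroup (GL (Fin 2) F)).comap
          (SpecialLinearGroup.toGL : SL(2, F) →* GL (Fin 2) F)) :=
        Nat.le_of_dvd Nat.card_pos (Subgroup.card_dvd_of_le (Subgroup.map_le_iff_le_comap.1 hS'))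
    _ = Nat.card P₀ := by
      rw [hcard, hcard, hg, cjg_inf_slK, Subgroup.card_map_of_injective (MulAut.conj g).injective]

/-- The structure of a Sylow `2`-subgroup of `SL₂`. -/
theorem sylow_facts (hF : Odd (Fintype.card F)) (P : Sylow 2 (SL(2, F))) :
    (∃ a b : (P : Subgroup (SL(2, F))), Subgroup.closure {a, b} = ⊤ ∧ CycTwo (Subgroup.zpowers a) ∧
      a * b ≠ b * a) ∧ ∃ c ∈ (P : Subgroup (SL(2, F))), c * c = -1 := by
  obtain ⟨k, hk, ⟨e⟩⟩ := sl_two_sylow_quaternion hF P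
  set n := 2 ^ k with hn
  have hn2 : 2 ≤ n := by simpa [hn] using Nat.pow_le_pow_right (by norm_num : 0 < 2) hk
  haveI : NeZero n := ⟨by omega⟩
  set a := e.symm (QuaternionGroup.a 1) with ha
  set b := e.symm (QuaternionGroup.xa 0) with hb
  refine ⟨⟨a, b, ?_, ⟨inferInstance, ?_⟩, ?_⟩, ?_⟩
  · refine top_le_iff.1 fun y _ => ?_
    have hA : ∀ i : ZMod (2 * n), e.symm (QuaternionGroup.a i) ∈ Subgroup.closure {a, b} := by
      intro i
      rw [← ZMod.natCast_zmod_val i, ← QuaternionGroup.a_one_pow, map_pow]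
      exact pow_mem (Subgroup.subset_closure (show a ∈ ({a, b} : Set (P : Subgroup (SL(2, F)))) from Or.inl rfl)) _
    rw [← e.symm_apply_apply y]
    cases e y with
    | a i => exact hA i
    | xa i =>
      rw [show QuaternionGroup.xa i = QuaternionGroup.xa (0 : ZMod (2 * n)) * QuaternionGroup.a i by simp, map_mul]
      exact Subgroup.mul_mem _ (Subgroup.subset_closure (Or.inr rfl)) (hA i)
  · have h1 := (Subgroup.zpowers a).card_mul_index
    rw [Nat.card_zpowers, ha, e.symm.orderOf_eq, QuaternionGroup.orderOf_a_one,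
      Nat.card_congr e.toEquiv, Nat.card_eq_fintype_card, QuaternionGroup.card] at h1
    nlinarith
  · intro h
    have h2 : QuaternionGroup.a (1 : ZMod (2 * n)) * QuaternionGroup.xa 0 =
        QuaternionGroup.xa 0 * QuaternionGroup.a 1 := by
      apply e.symm.injective; rw [map_mul, map_mul]; exact h
    simp at h2
    have h3 : ((2 : ℕ) : ZMod (2 * n)) = 0 := by push_cast; linear_combination -h2
    rw [ZMod.natCast_eq_zero_iff] at h3
    have := Nat.le_of_dvd (by norm_num) h3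
    omega
  · obtain ⟨m, hm⟩ : ∃ m, n = 2 * m := ⟨2 ^ (k - 1), by rw [hn, ← pow_succ']; congr 1; omega⟩
    refine ⟨(a ^ m : (P : Subgroup (SL(2, F)))), SetLike.coe_mem _, ?_⟩
    have ho : orderOf a = 2 * n := by rw [ha, e.symm.orderOf_eq, QuaternionGroup.orderOf_a_one]
    have hne : a ^ n ≠ 1 := fun h => by
      have := Nat.le_of_dvd (by omega) (orderOf_dvd_of_pow_eq_one h); omega
    have h1 : a ^ n * a ^ n = 1 := by rw [← pow_add, ← two_mul, ← ho, pow_orderOf_eq_one]
    rw [← Subgroup.coe_mul, ← pow_add, ← two_mul, ← hm]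
    refine (sl_two_sq_eq_one (two_ne_zero_of_odd_card hF) ?_).resolve_left fun h => hne (Subtype.ext h)
    rw [pow_two, ← Subgroup.coe_mul, h1, Subgroup.coe_one]

/-- A unipotent matrix of `2`-power order is trivial. -/
theorem eq_one_of_fixes (hF : Odd (Fintype.card F)) {c : SL(2, F)} {v : Fin 2 → F} (hv : v ≠ 0)
    (hcv : (c : Matrix (Fin 2) (Fin 2) F) *ᵥ v = v) {k : ℕ} (hc : c ^ 2 ^ k = 1) : c = 1 := by
  set C := (c : Matrix (Fin 2) (Fin 2) F) with hC
  have hdet : (C - 1).det = 0 :=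
    Matrix.exists_mulVec_eq_zero_iff.1 ⟨v, hv, by rw [Matrix.sub_mulVec, hcv, Matrix.one_mulVec, sub_self]⟩
  have hd : C.det = 1 := c.2
  rw [det_fin_two] at hdet hd
  simp at hdet
  have hN : (C - 1) * (C - 1) = 0 := by
    ext i j
    fin_cases i <;> fin_cases j <;> simp [Matrix.mul_apply, Fin.sum_univ_two] <;> grobner
  have hpow : ∀ n : ℕ, C ^ n = 1 + (n : F) • (C - 1) := by
    intro n
    induction n with
    | zero => simp
    | succ n ih =>
      have e : C = 1 + (C - 1) := by abel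
      rw [pow_succ, ih]
      conv_lhs => rw [e]
      push_cast
      rw [add_mul, mul_add, mul_add, one_mul, one_mul, mul_one, smul_mul_assoc, add_sub_cancel, hN,
        smul_zero, add_zero, add_smul, one_smul]
      abel
  have h1 : ((2 ^ k : ℕ) : F) • (C - 1) = 0 := by
    have := hpow (2 ^ k)
    rw [hC, ← Matrix.SpecialLinearGroup.coe_pow, hc, Matrix.SpecialLinearGroup.coe_one] at this
    exact (left_eq_add.1 this)
  rcases smul_eq_zero.1 h1 with h | h
  · push_cast at h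
    exact absurd (eq_zero_of_pow_eq_zero h) (two_ne_zero_of_odd_card hF)
  · exact Subtype.ext (sub_eq_zero.1 h)

theorem irr_two (hF : Odd (Fintype.card F)) (S : Sylow 2 (GL (Fin 2) F)) :
    Irr ((S : Subgroup (GL (Fin 2) F)) ⊓ slK F (Fin 2)) := by
  intro W hW
  obtain ⟨P, hP⟩ := exists_sylow_SL S
  obtain ⟨⟨a, b, -, -, hab⟩, -⟩ := sylow_facts hF P
  have hle : Module.finrank F W ≤ 2 := (Submodule.finrank_le W).trans (by simp)
  rcases (show Module.finrank F W = 0 ∨ Module.finrank F W = 1 ∨ Module.finrank F W = 2 by omega) with h | h | h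
  · exact Or.inl (Submodule.finrank_eq_zero.1 h)
  swap
  · exact Or.inr (Submodule.eq_top_of_finrank_eq (by simpa using h))
  exfalso
  obtain ⟨⟨v, hvW⟩, hv, hspan⟩ := finrank_eq_one_iff'.1 h
  have hev : ∀ g : (P : Subgroup (SL(2, F))), ∃ r : F,
      ((g : SL(2, F)) : Matrix (Fin 2) (Fin 2) F) *ᵥ v = r • v := by
    intro g
    have hm : ((g : SL(2, F)) : Matrix (Fin 2) (Fin 2) F) *ᵥ v ∈ W :=
      hW (SpecialLinearGroup.toGL (g : SL(2, F)))
        ⟨(hP g).1 g.2, toGL_mem_slK _⟩ v hvW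
    obtain ⟨r, hr⟩ := hspan ⟨_, hm⟩
    exact ⟨r, (congrArg Subtype.val hr).symm⟩
  set c := a * b * a⁻¹ * b⁻¹ with hc
  have hcv : ((c : SL(2, F)) : Matrix (Fin 2) (Fin 2) F) *ᵥ v = v := by
    have hinv : ∀ g : (P : Subgroup (SL(2, F))), ∀ r : F,
        ((g : SL(2, F)) : Matrix (Fin 2) (Fin 2) F) *ᵥ v = r • v →
        ∃ s : F, r * s = 1 ∧ (((g⁻¹ : (P : Subgroup (SL(2, F)))) : SL(2, F)) : Matrix (Fin 2) (Fin 2) F) *ᵥ v = s • v := by
      intro g r hr
      obtain ⟨s, hs⟩ := hev g⁻¹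
      refine ⟨s, ?_, hs⟩
      have h1 : v = (r * s) • v := by
        conv_lhs => rw [← one_mulVec v, ← Matrix.SpecialLinearGroup.coe_one, ← Subgroup.coe_one (P : Subgroup (SL(2, F))),
          ← inv_mul_cancel g]
        rw [Subgroup.coe_mul, Matrix.SpecialLinearGroup.coe_mul, ← mulVec_mulVec, hr, mulVec_smul, hs, smul_smul]
      by_contra hne
      refine hv (Subtype.ext ?_)
      have h2 : (r * s - 1) • v = 0 := by rw [sub_smul, one_smul, ← h1, sub_self]
      exact (smul_eq_zero.1 h2).resolve_left (sub_ne_zero.2 hne)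
    obtain ⟨r, hr⟩ := hev a
    obtain ⟨s, hs⟩ := hev b
    obtain ⟨r', hr1, hr'⟩ := hinv a r hr
    obtain ⟨s', hs1, hs'⟩ := hinv b s hs
    simp only [hc, Subgroup.coe_mul, Matrix.SpecialLinearGroup.coe_mul, ← mulVec_mulVec]
    simp only [hs', hr', hs, hr, mulVec_smul]
    simp only [smul_smul]
    rw [show s' * (r' * (s * r)) = (r * r') * (s * s') by ring, hr1, hs1, one_mul, one_smul]
  obtain ⟨k, hk⟩ := P.isPGroup' c
  have hc1 := eq_one_of_fixes hF (fun e => hv (Subtype.ext e)) hcv (k := k) (by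
    rw [← SubgroupClass.coe_pow, hk, Subgroup.coe_one])
  apply hab
  have h2 : c = 1 := Subtype.ext hc1
  rw [hc, mul_inv_eq_one, mul_inv_eq_iff_eq_mul] at h2
  exact h2

theorem map_conj_cycTwo {Q : Type*} [Group Q] {N : Subgroup Q} (hN : N.index = 2) (g : Q) :
    N.map (MulAut.conj g).toMonoidHom = N := by
  have := Subgroup.normal_of_index_eq_two hN
  ext y
  constructor
  · rintro ⟨z, hz, rfl⟩
    simpa using this.conj_mem z hz g
  · intro hy
    exact ⟨g⁻¹ * y * g, by simpa using this.conj_mem y hy g⁻¹, by simp [mul_assoc]⟩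

theorem exists_nonsquare (hF : Odd (Fintype.card F)) :
    ∃ ε : Fˣ, ¬ IsSquare ε ∧ ∃ k : ℕ, ε ^ 2 ^ k = 1 := by
  obtain ⟨a, ha⟩ := FiniteField.exists_nonsquare (F := F) (fun h => by
    have := FiniteField.even_card_of_char_two h
    obtain ⟨c, hc⟩ := hF; omega)
  have ha0 : a ≠ 0 := fun h => ha (h ▸ IsSquare.zero)
  obtain ⟨i, j, hij, hi, k, hj⟩ := exists_parts (Units.mk0 a ha0)
  refine ⟨_, fun hsq => ha ?_, k, hj⟩
  have hsq1 : IsSquare ((Units.mk0 a ha0) ^ i) := by
    obtain ⟨m, hm⟩ := hi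
    refine ⟨((Units.mk0 a ha0) ^ i) ^ (m + 1), ?_⟩
    rw [← pow_add, show m + 1 + (m + 1) = orderOf ((Units.mk0 a ha0) ^ i) + 1 by omega, pow_succ,
      pow_orderOf_eq_one, one_mul]
  obtain ⟨t, ht⟩ := hsq1.mul hsq
  rw [← hij] at ht
  exact ⟨t, congrArg Units.val ht⟩

set_option maxHeartbeats 1000000 in
theorem oddCentral_two (hF : Odd (Fintype.card F)) (S : Sylow 2 (GL (Fin 2) F)) :
    OddCentral (S : Subgroup (GL (Fin 2) F)) := by
  intro x hx hn
  haveI : Fact (Nat.Prime 2) := ⟨Nat.prime_two⟩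
  set Q : Subgroup (GL (Fin 2) F) := (S : Subgroup (GL (Fin 2) F)) ⊓ slK F (Fin 2) with hQdef
  obtain ⟨P, hP⟩ := exists_sylow_SL S
  obtain ⟨⟨a₀, b₀, -, hcyc₀, hne₀⟩, -⟩ := sylow_facts hF P
  let e : (P : Subgroup (SL(2, F))) ≃* Q := MulEquiv.ofBijective
    ({ toFun := fun g => ⟨SpecialLinearGroup.toGL (g : SL(2, F)), (hP g).1 g.2, toGL_mem_slK _⟩
       map_one' := Subtype.ext (map_one _)
       map_mul' := fun g h => Subtype.ext (map_mul _ _ _) } :
        (P : Subgroup (SL(2, F))) →* Q)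
    ⟨fun g h he => Subtype.ext (toGL_injective (congrArg Subtype.val he)), fun y => by
      obtain ⟨y, hy1, hy2⟩ := y
      obtain ⟨g, rfl⟩ := slK_eq (F := F) ▸ (show y ∈ slK F (Fin 2) from hy2)
      exact ⟨⟨g, (hP g).2 hy1⟩, rfl⟩⟩
  have hQp : IsPGroup 2 Q := S.2.to_le inf_le_left
  have hnQ : ∀ g : GL (Fin 2) F, (∀ s ∈ (S : Subgroup (GL (Fin 2) F)), g * s * g⁻¹ ∈ (S : Subgroup (GL (Fin 2) F))) →
      g ∈ Subgroup.normalizer (Q : Set (GL (Fin 2) F)) := by
    intro g hg
    refine Subgroup.mem_normalizer_iff_map_conj_eq.2 (Subgroup.eq_of_le_of_card_ge ?_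
      (by rw [Subgroup.card_map_of_injective (MulAut.conj g).injective]))
    rintro _ ⟨q, hq, rfl⟩
    exact ⟨hg q hq.1, Subgroup.Normal.conj_mem inferInstance q hq.2 g⟩
  let X : Subgroup.normalizer (Q : Set (GL (Fin 2) F)) := ⟨x, hnQ x hn⟩
  let ρ := Q.normalizerMonoidHom
  have hρ : ∀ (g : Subgroup.normalizer (Q : Set (GL (Fin 2) F))) (q : Q),
      ((ρ g q : Q) : GL (Fin 2) F) = g * q * (g : GL (Fin 2) F)⁻¹ := fun g q => rfl
  set a := e a₀ with ha
  set b := e b₀ with hb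
  have hab : (a : GL (Fin 2) F) * b ≠ b * a := fun h => hne₀ (e.injective (by
    rw [map_mul, map_mul]; exact Subtype.ext h))
  have hfixcomm : ∀ (g : Subgroup.normalizer (Q : Set (GL (Fin 2) F))) (q : Q), ρ g q = q →
      (q : GL (Fin 2) F) * g = g * q := by
    intro g q h
    have := congrArg Subtype.val h
    rw [hρ, mul_inv_eq_iff_eq_mul] at this
    exact this.symm
  set φ := ρ X with hφdef
  by_cases hφ1 : φ = 1
  · exact central_of_commute hab (hfixcomm X a (by rw [← hφdef, hφ1]; rfl))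
      (hfixcomm X b (by rw [← hφdef, hφ1]; rfl))
  exfalso
  have hXord : orderOf X = orderOf x :=
    (orderOf_injective (Subgroup.normalizer (Q : Set (GL (Fin 2) F))).subtype Subtype.val_injective X).symm
  have hφo : Odd (orderOf φ) := hx.of_dvd_nat (by rw [← hXord]; exact orderOf_map_dvd ρ X)
  obtain ⟨A, B, hAB, hC⟩ : ∃ A B : Q, Subgroup.closure {A, B} = ⊤ ∧ CycTwo (Subgroup.zpowers A) := by
    obtain ⟨⟨a₁, b₁, hg, hc, -⟩, -⟩ := sylow_facts hF P
    refine ⟨e a₁, e b₁, ?_, ⟨inferInstance, ?_⟩⟩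
    · have := congrArg (Subgroup.map e.toMonoidHom) hg
      rw [MonoidHom.map_closure, Subgroup.map_top_of_surjective e.toMonoidHom e.surjective, Set.image_pair] at this
      exact this
    · have h2 := Subgroup.index_map_equiv (Subgroup.zpowers a₁) e
      rw [MonoidHom.map_zpowers, hc.2] at h2
      exact h2
  set C := Subgroup.zpowers A with hCdef
  obtain ⟨hCD, -, -, -, -⟩ := three_cycle hQp hAB hφo hφ1 hC
  set D := C.map φ.toMonoidHom with hDdef
  have hDC : CycTwo D := cycTwo_map hC φ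
  set d := φ A with hd
  have hDz : D = Subgroup.zpowers d := by rw [hDdef, hCdef, MonoidHom.map_zpowers]; rfl
  -- `2`-elements of the normalizer fix the cyclic subgroups
  have hfix : ∀ s ∈ (S : Subgroup (GL (Fin 2) F)), ∀ hs : s ∈ Subgroup.normalizer (Q : Set (GL (Fin 2) F)),
      ∀ Z, CycTwo Z → Z.map (ρ ⟨s, hs⟩).toMonoidHom = Z := by
    intro s hsS hs Z hZ
    obtain ⟨m, hm⟩ := S.2 ⟨s, hsS⟩
    have hm' : (⟨s, hs⟩ : Subgroup.normalizer (Q : Set (GL (Fin 2) F))) ^ 2 ^ m = 1 :=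
      Subtype.ext (by simpa using congrArg Subtype.val hm)
    refine fix_of_comm hQp hAB hφo hφ1 hZ (m := m) (by rw [← map_pow, hm', map_one]) fun Y hY => ?_
    have hq : x * s * x⁻¹ * s⁻¹ ∈ Q := by
      refine ⟨Subgroup.mul_mem _ (hn s hsS) (Subgroup.inv_mem _ hsS), ?_⟩
      show x * s * x⁻¹ * s⁻¹ ∈ slK F (Fin 2)
      rw [MonoidHom.mem_ker, map_mul, map_mul, map_mul, map_inv, map_inv]
      simp [mul_comm, mul_assoc]
    have key : ρ X * ρ ⟨s, hs⟩ = MulAut.conj (⟨_, hq⟩ : Q) * (ρ ⟨s, hs⟩ * ρ X) := by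
      refine MulEquiv.ext fun q => Subtype.ext ?_
      simp only [MulAut.mul_apply, MulAut.conj_apply, Subgroup.coe_mul, Subgroup.coe_inv, hρ]
      simp only [X]
      group
    set σ := ρ ⟨s, hs⟩
    have e' : ∀ (α β : MulAut Q) (U : Subgroup Q),
        U.map (α * β : MulAut Q).toMonoidHom = (U.map β.toMonoidHom).map α.toMonoidHom := fun α β U => by
      rw [Subgroup.map_map]; rfl
    rw [← e', ← e', key, e' (MulAut.conj (⟨_, hq⟩ : Q))]
    exact (map_conj_cycTwo (cycTwo_map hY (σ * ρ X)).2 (⟨_, hq⟩ : Q)).symm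
  -- squares are `±1`
  have hgen : Subgroup.closure {A, d} = ⊤ := by
    refine top_le_iff.1 fun y _ => ?_
    set U := Subgroup.closure {A, d}
    have hCU : C ≤ U := Subgroup.zpowers_le.2 (Subgroup.subset_closure (Or.inl rfl))
    have hdU : d ∈ U := Subgroup.subset_closure (Or.inr rfl)
    have hdC : d ∉ C := fun h => hCD (Subgroup.eq_of_le_of_card_ge (hDz ▸ Subgroup.zpowers_le.2 h) (by
      have h1 := C.card_mul_index
      have h2 := D.card_mul_index
      rw [hC.2] at h1; rw [hDC.2] at h2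
      omega)).symm
    by_cases hy : y ∈ C
    · exact hCU hy
    · have : d⁻¹ * y ∈ C :=
        (Subgroup.mul_mem_iff_of_index_two hC.2).2 (iff_of_false (fun h => hdC (inv_mem_iff.1 h)) hy)
      simpa using mul_mem hdU (hCU this)
  have hnc : (A : GL (Fin 2) F) * d ≠ d * A := by
    intro h
    apply hab
    have hc : ∀ y : Q, (y : GL (Fin 2) F) * A = A * y ∧ (y : GL (Fin 2) F) * d = d * y := by
      intro y
      have : y ∈ Subgroup.closure {A, d} := hgen ▸ Subgroup.mem_top y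
      induction this using Subgroup.closure_induction with
      | mem z hz => rcases hz with rfl | rfl <;> simp [h]
      | one => simp
      | mul z w _ _ hz hw =>
        simp only [Subgroup.coe_mul]
        exact ⟨(Commute.mul_left (show Commute (z : GL (Fin 2) F) A from hz.1) hw.1).eq,
          (Commute.mul_left (show Commute (z : GL (Fin 2) F) d from hz.2) hw.2).eq⟩
      | inv z _ hz =>
        simp only [Subgroup.coe_inv]
        exact ⟨(Commute.inv_left (show Commute (z : GL (Fin 2) F) A from hz.1)).eq,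
          (Commute.inv_left (show Commute (z : GL (Fin 2) F) d from hz.2)).eq⟩
    suffices hall : ∀ z : Q, z ∈ Subgroup.closure {A, d} → (z : GL (Fin 2) F) * b = b * z from
      hall a (hgen ▸ Subgroup.mem_top a)
    intro z hz
    induction hz using Subgroup.closure_induction with
    | mem z hz => rcases hz with rfl | rfl; exacts [(hc b).1.symm, (hc b).2.symm]
    | one => simp
    | mul z w _ _ hz hw =>
      simp only [Subgroup.coe_mul]
      exact (Commute.mul_left (show Commute (z : GL (Fin 2) F) b from hz) hw).eq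
    | inv z _ hz =>
      simp only [Subgroup.coe_inv]
      exact (Commute.inv_left (show Commute (z : GL (Fin 2) F) b from hz)).eq
  have hpm : ∀ y : Q, y ∈ C → y ∈ D → (y : GL (Fin 2) F) * y = 1 := by
    intro y hyC hyD
    obtain ⟨i, rfl⟩ := hyC
    rw [hDz] at hyD
    obtain ⟨j, hj⟩ := hyD
    refine sq_eq_one_of_center_slK (central_of_commute hnc ?_ ?_) (A ^ i).2.2
    · rw [SubgroupClass.coe_zpow]; exact (Commute.self_zpow _ i).eq
    · rw [← hj, SubgroupClass.coe_zpow]; exact (Commute.self_zpow _ j).eq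
  have hfour : ∀ g : Q, (g = A ∨ g = d) → g ^ 4 = 1 := by
    intro g hg
    have hsq : ∀ Z, CycTwo Z → g * g ∈ Z := fun Z hZ => Subgroup.mul_self_mem_of_index_two hZ.2 g
    have := hpm (g * g) (hsq C hC) (hsq D hDC)
    refine Subtype.ext ?_
    simpa [pow_succ, mul_assoc] using this
  have hgens : ∀ (g : Q) (τ : MulAut Q), (g = A ∨ g = d) →
      (Subgroup.zpowers g).map τ.toMonoidHom = Subgroup.zpowers g → τ g = g ∨ τ g = g⁻¹ := by
    intro g τ hg hτ
    obtain ⟨k, hk⟩ : τ g ∈ Subgroup.zpowers g := hτ ▸ ⟨g, Subgroup.mem_zpowers g, rfl⟩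
    have h4 := hfour g hg
    have hk' : τ g = g ^ (k % 4) := by
      rw [← hk]
      show g ^ k = _
      conv_lhs => rw [← Int.emod_add_mul_ediv k 4]
      rw [_root_.zpow_add, _root_.zpow_mul, show g ^ (4 : ℤ) = 1 by exact_mod_cast h4, _root_.one_zpow, mul_one]
    rcases (show k % 4 = 0 ∨ k % 4 = 1 ∨ k % 4 = 2 ∨ k % 4 = 3 by omega) with h | h | h | h <;> rw [h] at hk'
    · have : g = 1 := τ.injective (by rw [hk', map_one]; simp)
      exact Or.inl (by simp [this])
    · exact Or.inl (by simpa using hk')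
    · left
      have h2 : (τ g) * (τ g) = 1 := by
        rw [hk', ← _root_.zpow_add]; exact_mod_cast h4
      have h3 : g * g = 1 := τ.injective (by rw [map_mul, h2, map_one])
      have : τ g = 1 := by rw [hk', show (2 : ℤ) = 1 + 1 from rfl, _root_.zpow_add, _root_.zpow_one, h3]
      rw [show g = 1 from τ.injective (by rw [this, map_one]), map_one]
    · right
      rw [hk', eq_inv_iff_mul_eq_one, ← _root_.zpow_add_one]; exact_mod_cast h4
  have hconjd : (d : GL (Fin 2) F) * A * (d : GL (Fin 2) F)⁻¹ = (A : GL (Fin 2) F)⁻¹ := by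
    rcases hgens A (MulAut.conj d) (Or.inl rfl) (by
      haveI : C.Normal := Subgroup.normal_of_index_eq_two hC.2
      exact Subgroup.mem_normalizer_iff_map_conj_eq.1 (Subgroup.normalizer_eq_top C ▸ Subgroup.mem_top d)) with h | h
    · exfalso
      have := congrArg Subtype.val h
      simp only [MulAut.conj_apply, Subgroup.coe_mul, Subgroup.coe_inv, mul_inv_eq_iff_eq_mul] at this
      exact hnc this.symm
    · simpa using congrArg Subtype.val h
  have hconjA : (A : GL (Fin 2) F) * d * (A : GL (Fin 2) F)⁻¹ = (d : GL (Fin 2) F)⁻¹ := by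
    rcases hgens d (MulAut.conj A) (Or.inr rfl) (by
      haveI : D.Normal := Subgroup.normal_of_index_eq_two hDC.2
      rw [← hDz]
      exact Subgroup.mem_normalizer_iff_map_conj_eq.1 (Subgroup.normalizer_eq_top D ▸ Subgroup.mem_top A)) with h | h
    · exfalso
      have := congrArg Subtype.val h
      simp only [MulAut.conj_apply, Subgroup.coe_mul, Subgroup.coe_inv, mul_inv_eq_iff_eq_mul] at this
      exact hnc this
    · simpa using congrArg Subtype.val h
  have hdet : ∀ s ∈ (S : Subgroup (GL (Fin 2) F)), IsSquare (GeneralLinearGroup.det s) := by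
    intro s hsS
    have hs : s ∈ Subgroup.normalizer (Q : Set (GL (Fin 2) F)) :=
      hnQ s fun t ht => mul_mem (mul_mem hsS ht) (inv_mem hsS)
    have f1 := hgens A (ρ ⟨s, hs⟩) (Or.inl rfl) (hfix s hsS hs C hC)
    have f2 := hgens d (ρ ⟨s, hs⟩) (Or.inr rfl) (hDz ▸ hfix s hsS hs D hDC)
    obtain ⟨q, hqA, hqd⟩ : ∃ q : Q, (q : GL (Fin 2) F) * A * (q : GL (Fin 2) F)⁻¹ = s * A * s⁻¹ ∧
        (q : GL (Fin 2) F) * d * (q : GL (Fin 2) F)⁻¹ = s * d * s⁻¹ := by
      rcases f1 with h1 | h1 <;> rcases f2 with h2 | h2 <;>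
        replace h1 := congrArg Subtype.val h1 <;> replace h2 := congrArg Subtype.val h2 <;>
        simp only [hρ, Subgroup.coe_inv] at h1 h2 <;> rw [h1, h2]
      · exact ⟨1, by simp, by simp⟩
      · exact ⟨A, by simp, hconjA⟩
      · exact ⟨d, hconjd, by simp⟩
      · refine ⟨A * d, ?_, ?_⟩
        · rw [Subgroup.coe_mul, show (A : GL (Fin 2) F) * d * A * ((A : GL (Fin 2) F) * d)⁻¹ =
            A * ((d : GL (Fin 2) F) * A * (d : GL (Fin 2) F)⁻¹) * (A : GL (Fin 2) F)⁻¹ by group, hconjd]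
          group
        · rw [Subgroup.coe_mul, show (A : GL (Fin 2) F) * d * d * ((A : GL (Fin 2) F) * d)⁻¹ =
            A * (d : GL (Fin 2) F) * (A : GL (Fin 2) F)⁻¹ by group, hconjA]
    have hz : (q : GL (Fin 2) F)⁻¹ * s ∈ Subgroup.center (GL (Fin 2) F) := by
      have hh : ∀ g : GL (Fin 2) F, (q : GL (Fin 2) F) * g * (q : GL (Fin 2) F)⁻¹ = s * g * s⁻¹ →
          g * ((q : GL (Fin 2) F)⁻¹ * s) = (q : GL (Fin 2) F)⁻¹ * s * g := fun g hg => by
        calc g * ((q : GL (Fin 2) F)⁻¹ * s) =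
            (q : GL (Fin 2) F)⁻¹ * ((q : GL (Fin 2) F) * g * (q : GL (Fin 2) F)⁻¹) * s := by group
          _ = (q : GL (Fin 2) F)⁻¹ * (s * g * s⁻¹) * s := by rw [hg]
          _ = _ := by group
      exact central_of_commute hnc (hh A hqA) (hh d hqd)
    obtain ⟨r, hr⟩ := exists_scalar_of_center hz
    refine ⟨r, ?_⟩
    rw [show s = (q : GL (Fin 2) F) * GeneralLinearGroup.scalar (Fin 2) r by rw [← hr, mul_inv_cancel_left],
      map_mul, det_scalar_two, show GeneralLinearGroup.det (q : GL (Fin 2) F) = 1 from q.2.2, one_mul]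
  obtain ⟨ε, hε, k, hk⟩ := exists_nonsquare hF
  let g : GL (Fin 2) F := GeneralLinearGroup.mkOfDetNeZero (Matrix.diagonal ![(ε : F), 1]) (by simp [Matrix.det_diagonal])
  have hgd : GeneralLinearGroup.det g = ε := by ext; simp [g, Matrix.det_diagonal]
  have hgk : g ^ 2 ^ k = 1 := by
    apply Units.ext
    rw [Units.val_pow_eq_pow_val]
    simp only [g]
    show Matrix.diagonal ![(ε : F), 1] ^ 2 ^ k = 1
    rw [Matrix.diagonal_pow, ← Matrix.diagonal_one]
    congr 1
    ext i; fin_cases i <;> simp [← Units.val_pow_eq_pow_val, hk]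
  obtain ⟨j, -, hj⟩ := (Nat.dvd_prime_pow Nat.prime_two).1 (orderOf_dvd_of_pow_eq_one hgk)
  obtain ⟨S', hS'⟩ := (IsPGroup.of_card (p := 2) (n := j) ((Nat.card_zpowers g).trans hj)).exists_le_sylow
  obtain ⟨c, hc⟩ := exists_cjg S S'
  have hgS := hS' (Subgroup.mem_zpowers g)
  rw [hc, mem_cjg] at hgS
  apply hε
  have := hdet _ hgS
  rwa [map_mul, map_mul, map_inv, inv_mul_cancel_comm, hgd] at this

theorem good_two (hF : Odd (Fintype.card F)) : Good F (Fin 2) := by
  haveI : Fact (Nat.Prime 2) := ⟨Nat.prime_two⟩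
  intro S
  obtain ⟨P, hP⟩ := exists_sylow_SL S
  obtain ⟨-, c, hc, hcc⟩ := sylow_facts hF P
  refine ⟨irr_two hF S, ⟨SpecialLinearGroup.toGL c,
    ⟨(hP c).1 hc, toGL_mem_slK _⟩, ?_⟩, oddCentral_two hF S⟩
  rw [← map_mul, hcc]
  apply Units.ext
  simp

end Cfsg.Agent.Lib.Pronormal2
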