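import Cfsg.Agent.Lib.Classical.Order

/-!
The power of `2` in `|GL_{2m}(q)|`, `m` a power of `2`, `q` odd.
-/

set_option autoImplicit false
set_option linter.unusedSectionVars false

namespace Cfsg.Agent.Lib.Pronormal2

open Matrix

universe u

variable {q : ℕ}

/-- The power of `2` in `q^j - 1`. -/
def vTwo (q j : ℕ) : ℕ := (q ^ j - 1).factorization 2

theorem sub_pos_of (hq3 : 3 ≤ q) {j : ℕ} (hj : j ≠ 0) : q ^ j - 1 ≠ 0 := by
  have := Nat.one_lt_pow hj (show 1 < q by omega)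
  omega

theorem vTwo_mul_odd (hq : Odd q) (hq3 : 3 ≤ q) {k r : ℕ} (hk : k ≠ 0) (hr : Odd r) :
    vTwo q (k * r) = vTwo q k := by
  have h1 : (∑ i ∈ Finset.range r, (q ^ k) ^ i) * (q ^ k - 1) = q ^ (k * r) - 1 := by
    rw [pow_mul]; exact geom_sum_mul_of_one_le (Nat.one_le_pow _ _ (by omega)) r
  have hodd : ∀ r, (∑ i ∈ Finset.range r, (q ^ k) ^ i) % 2 = r % 2 := by
    intro r
    induction r with
    | zero => simp
    | succ r ih =>
      rw [Finset.sum_range_succ, Nat.add_mod, ih, Nat.odd_iff.1 ((hq.pow).pow)]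
      omega
  have hs : ¬ 2 ∣ ∑ i ∈ Finset.range r, (q ^ k) ^ i := by
    have := hodd r
    rw [Nat.odd_iff.1 hr] at this
    omega
  show (q ^ (k * r) - 1).factorization 2 = _
  rw [← h1, Nat.factorization_mul (fun h => hs (by rw [h]; exact dvd_zero 2)) (sub_pos_of hq3 hk),
    Finsupp.add_apply, Nat.factorization_eq_zero_of_not_dvd hs, zero_add]
  rfl

theorem vTwo_add (hq : Odd q) (hq3 : 3 ≤ q) {v i : ℕ} (hi0 : i ≠ 0) (hi : i < 2 ^ v) :
    vTwo q (2 ^ v + i) = vTwo q i := by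
  obtain ⟨a, r, hr, rfl⟩ := Nat.exists_eq_two_pow_mul_odd hi0
  have hav : a < v := by
    by_contra h
    have := Nat.pow_le_pow_right (show 0 < 2 by norm_num) (not_lt.1 h)
    have : 2 ^ a ≤ 2 ^ a * r := Nat.le_mul_of_pos_right _ hr.pos
    omega
  rw [show 2 ^ v + 2 ^ a * r = 2 ^ a * (2 ^ (v - a) + r) by
    rw [mul_add, ← pow_add, Nat.add_sub_cancel' hav.le]]
  rw [vTwo_mul_odd hq hq3 (by positivity) hr, vTwo_mul_odd hq hq3 (by positivity)]
  exact ((Nat.even_pow.2 ⟨even_two, by omega⟩).add_odd hr)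

theorem vTwo_double (hq : Odd q) (hq3 : 3 ≤ q) {m : ℕ} (hm : Even m) (hm0 : m ≠ 0) :
    vTwo q (2 * m) = vTwo q m + 1 := by
  have h1 : q ^ (2 * m) - 1 = (q ^ m + 1) * (q ^ m - 1) := by
    rw [← Nat.sq_sub_sq, one_pow, ← pow_mul, mul_comm]
  have h2 : (q ^ m + 1) % 4 = 2 := by
    obtain ⟨t, rfl⟩ := hm
    obtain ⟨s, hs⟩ := hq.pow (n := t)
    rw [pow_add, hs, show (2 * s + 1) * (2 * s + 1) + 1 = 4 * (s * s + s) + 2 by ring]
    omega
  have h3 : (q ^ m + 1).factorization 2 = 1 := by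
    obtain ⟨u, hu⟩ : ∃ u, q ^ m + 1 = 2 * (2 * u + 1) := ⟨(q ^ m + 1) / 4, by omega⟩
    rw [hu, Nat.factorization_mul (by norm_num) (by omega), Finsupp.add_apply,
      Nat.Prime.factorization_self Nat.prime_two, Nat.factorization_eq_zero_of_not_dvd (by omega)]
  show (q ^ (2 * m) - 1).factorization 2 = _
  rw [h1, Nat.factorization_mul (by omega) (sub_pos_of hq3 hm0), Finsupp.add_apply, h3, add_comm]
  rfl

theorem sum_vTwo (hq : Odd q) (hq3 : 3 ≤ q) {v : ℕ} (hv : 1 ≤ v) :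
    ∑ j ∈ Finset.range (2 ^ v + 2 ^ v), vTwo q (j + 1) =
      1 + 2 * ∑ j ∈ Finset.range (2 ^ v), vTwo q (j + 1) := by
  obtain ⟨m, hm⟩ : ∃ m, 2 ^ v = m + 1 := ⟨2 ^ v - 1, by have := Nat.one_le_two_pow (n := v); omega⟩
  have hlast : vTwo q (2 ^ v + m + 1) = vTwo q (m + 1) + 1 := by
    rw [show 2 ^ v + m + 1 = 2 * 2 ^ v by omega, ← hm]
    exact vTwo_double hq hq3 (Nat.even_pow.2 ⟨even_two, by omega⟩) (by positivity)
  have key : ∑ x ∈ Finset.range (2 ^ v), vTwo q (2 ^ v + x + 1) =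
      (∑ x ∈ Finset.range (2 ^ v), vTwo q (x + 1)) + 1 := by
    have e : ∀ (f : ℕ → ℕ), ∑ x ∈ Finset.range (2 ^ v), f x = (∑ x ∈ Finset.range m, f x) + f m :=
      fun f => by rw [hm, Finset.sum_range_succ]
    rw [e, e, hlast, Finset.sum_congr rfl (g := fun x => vTwo q (x + 1)) (fun x hx => by
      show vTwo q (2 ^ v + x + 1) = vTwo q (x + 1)
      rw [add_assoc]
      exact vTwo_add hq hq3 (Nat.succ_ne_zero x) (by have := Finset.mem_range.1 hx; omega))]
    ring
  rw [Finset.sum_range_add, key]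
  ring

theorem factorization_card_GL {F : Type u} [Field F] [Fintype F] {ι : Type} [Fintype ι] [DecidableEq ι]
    (hF : Odd (Fintype.card F)) :
    (Nat.card (GL ι F)).factorization 2 =
      ∑ j ∈ Finset.range (Fintype.card ι), vTwo (Fintype.card F) (j + 1) := by
  classical
  set q := Fintype.card F with hq
  set n := Fintype.card ι
  have hq3 : 3 ≤ q := by
    have := Fintype.one_lt_card (α := F)
    obtain ⟨c, hc⟩ := hF; omega
  rw [Nat.card_congr (Units.mapEquiv (Matrix.reindexAlgEquiv F F (Fintype.equivFin ι)).toMulEquiv).toEquiv,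
    Matrix.card_GL_field, ← hq]
  have hfac : ∀ i : Fin n, q ^ n - q ^ (i : ℕ) = q ^ (i : ℕ) * (q ^ (n - (i : ℕ)) - 1) := by
    intro i
    rw [Nat.mul_sub, mul_one, ← pow_add, Nat.add_sub_cancel' i.2.le]
  have h2 : ∀ i : Fin n, (q ^ n - q ^ (i : ℕ)).factorization 2 = vTwo q (n - (i : ℕ)) := by
    intro i
    rw [hfac, Nat.factorization_mul (pow_ne_zero _ (by omega)) (sub_pos_of hq3 (by omega)),
      Finsupp.add_apply, Nat.factorization_pow, Finsupp.smul_apply,
      Nat.factorization_eq_zero_of_not_dvd (show ¬ 2 ∣ q by rw [Nat.odd_iff] at hF; omega), smul_zero, zero_add]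
    rfl
  rw [Nat.factorization_prod (fun i _ => by
      rw [hfac]; exact mul_ne_zero (pow_ne_zero _ (by omega)) (sub_pos_of hq3 (by omega))),
    Finsupp.finsetSum_apply, Finset.sum_congr rfl fun i _ => h2 i,
    Fin.sum_univ_eq_sum_range (fun i => vTwo q (n - i)) n,
    ← Finset.sum_range_reflect (fun j => vTwo q (j + 1)) n]
  exact Finset.sum_congr rfl fun x hx => by
    have := Finset.mem_range.1 hx
    congr 1; omega

theorem factorization_card_GL_double {F : Type u} [Field F] [Fintype F] {ι : Type} [Fintype ι] [DecidableEq ι]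
    (hF : Odd (Fintype.card F)) {v : ℕ} (hv : 1 ≤ v) (hι : Fintype.card ι = 2 ^ v) :
    (Nat.card (GL (ι ⊕ ι) F)).factorization 2 = 1 + 2 * (Nat.card (GL ι F)).factorization 2 := by
  have := Fintype.one_lt_card (α := F)
  rw [factorization_card_GL hF, factorization_card_GL hF, Fintype.card_sum, hι,
    sum_vTwo hF (by obtain ⟨c, hc⟩ := hF; omega) hv]

end Cfsg.Agent.Lib.Pronormal2
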