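import Cfsg.Agent.Lib.Pronormal2.Core
import Cfsg.Agent.Lib.Pronormal2.Count

/-!
From `GL_m` to `GL_{2m}`: a Sylow `2`-subgroup is a wreath product of one of `GL_m` with a group of order two.
-/

set_option autoImplicit false
set_option linter.unusedSectionVars false

namespace Cfsg.Agent.Lib.Pronormal2

open Matrix

universe u

variable {F : Type u} [Field F] [Fintype F] {ι : Type} [Fintype ι] [DecidableEq ι]

/-- A block diagonal element. -/
def blk (a b : GL ι F) : GL (ι ⊕ ι) F where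
  val := fromBlocks (a : Matrix ι ι F) 0 0 (b : Matrix ι ι F)
  inv := fromBlocks ((a⁻¹ : GL ι F) : Matrix ι ι F) 0 0 ((b⁻¹ : GL ι F) : Matrix ι ι F)
  val_inv := by simp [fromBlocks_multiply, fromBlocks_one]
  inv_val := by simp [fromBlocks_multiply, fromBlocks_one]

theorem blk_mul (a b c d : GL ι F) : blk a b * blk c d = blk (a * c) (b * d) :=
  Units.ext (by simp [blk, fromBlocks_multiply])

theorem blk_one : blk (1 : GL ι F) 1 = 1 := Units.ext (by simp [blk, fromBlocks_one])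

theorem blk_inv (a b : GL ι F) : (blk a b)⁻¹ = blk a⁻¹ b⁻¹ :=
  inv_eq_of_mul_eq_one_right (by rw [blk_mul, mul_inv_cancel, mul_inv_cancel, blk_one])

theorem blk_inj {a b c d : GL ι F} (h : blk a b = blk c d) : a = c ∧ b = d := by
  have h' := congrArg Units.val h
  simp only [blk, fromBlocks_inj] at h'
  exact ⟨Units.ext h'.1, Units.ext h'.2.2.2⟩

variable (F ι) in
/-- The element interchanging the two blocks. -/
def swp : GL (ι ⊕ ι) F where
  val := fromBlocks 0 1 (-1) 0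
  inv := fromBlocks 0 (-1) 1 0
  val_inv := by simp [fromBlocks_multiply, fromBlocks_one]
  inv_val := by simp [fromBlocks_multiply, fromBlocks_one]

theorem swp_sq : swp F ι * swp F ι = blk (-1 : GL ι F) (-1 : GL ι F) :=
  Units.ext (by simp [swp, blk, fromBlocks_multiply])

theorem swp_blk (a b : GL ι F) : swp F ι * blk a b = blk b a * swp F ι :=
  Units.ext (by simp [swp, blk, fromBlocks_multiply])

theorem det_blk (a b : GL ι F) :
    GeneralLinearGroup.det (blk a b) = GeneralLinearGroup.det a * GeneralLinearGroup.det b := by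
  ext
  simp [blk, Matrix.det_fromBlocks_zero₂₁]

theorem det_swp : GeneralLinearGroup.det (swp F ι) = 1 := by
  ext
  have h : (fromBlocks 1 1 0 1 : Matrix (ι ⊕ ι) (ι ⊕ ι) F) * fromBlocks 1 0 (-1) 1 * fromBlocks 1 1 0 1 =
      fromBlocks 0 1 (-1) 0 := by simp [fromBlocks_multiply]
  show (fromBlocks 0 1 (-1) 0 : Matrix (ι ⊕ ι) (ι ⊕ ι) F).det = 1
  rw [← h, det_mul, det_mul, det_fromBlocks_zero₂₁, det_fromBlocks_zero₁₂]
  simp

theorem blk_ne_swp [Nonempty ι] (a b c d : GL ι F) : blk a b ≠ blk c d * swp F ι := by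
  intro h
  have h' := congrArg Units.val h
  simp [blk, swp, fromBlocks_multiply] at h'

theorem mem_slK {g : GL ι F} : g ∈ slK F ι ↔ GeneralLinearGroup.det g = 1 := MonoidHom.mem_ker

/-- The wreath product of `S` with a group of order two. -/
def wr (S : Sylow 2 (GL ι F)) : Subgroup (GL (ι ⊕ ι) F) where
  carrier := {g | ∃ a ∈ (S : Subgroup (GL ι F)), ∃ b ∈ (S : Subgroup (GL ι F)),
    g = blk a b ∨ g = blk a b * swp F ι}
  one_mem' := ⟨1, one_mem _, 1, one_mem _, Or.inl blk_one.symm⟩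
  mul_mem' := by
    rintro _ _ ⟨a, ha, b, hb, rfl | rfl⟩ ⟨c, hc, d, hd, rfl | rfl⟩
    · exact ⟨a * c, mul_mem ha hc, b * d, mul_mem hb hd, Or.inl (blk_mul a b c d)⟩
    · exact ⟨a * c, mul_mem ha hc, b * d, mul_mem hb hd, Or.inr (by rw [← mul_assoc, blk_mul])⟩
    · exact ⟨a * d, mul_mem ha hd, b * c, mul_mem hb hc, Or.inr (by rw [mul_assoc, swp_blk, ← mul_assoc, blk_mul])⟩
    · refine ⟨a * d * -1, mul_mem (mul_mem ha hd) (neg_one_mem S), b * c * -1,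
        mul_mem (mul_mem hb hc) (neg_one_mem S), Or.inl ?_⟩
      rw [mul_assoc (blk a b), ← mul_assoc (swp F ι), swp_blk, mul_assoc (blk d c), swp_sq, blk_mul, blk_mul]
      simp [mul_assoc]
  inv_mem' := by
    rintro _ ⟨a, ha, b, hb, rfl | rfl⟩
    · exact ⟨a⁻¹, inv_mem ha, b⁻¹, inv_mem hb, Or.inl (blk_inv a b)⟩
    · refine ⟨-1 * b⁻¹, mul_mem (neg_one_mem S) (inv_mem hb), -1 * a⁻¹,
        mul_mem (neg_one_mem S) (inv_mem ha), Or.inr ?_⟩
      apply inv_eq_of_mul_eq_one_right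
      rw [mul_assoc (blk a b), ← mul_assoc (swp F ι), swp_blk, mul_assoc (blk (-1 * a⁻¹) _), swp_sq, blk_mul,
        blk_mul, ← blk_one]
      simp

theorem card_wr [Nonempty ι] (S : Sylow 2 (GL ι F)) :
    Nat.card (wr S) = 2 * (Nat.card (S : Subgroup (GL ι F))) ^ 2 := by
  let f : Bool × ↥(S : Subgroup (GL ι F)) × ↥(S : Subgroup (GL ι F)) → ↥(wr S) := fun t =>
    ⟨if t.1 then blk (t.2.1 : GL ι F) (t.2.2 : GL ι F) else blk (t.2.1 : GL ι F) (t.2.2 : GL ι F) * swp F ι,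
      (t.2.1 : GL ι F), t.2.1.2, (t.2.2 : GL ι F), t.2.2.2, by
      cases t.1 <;> simp⟩
  have hf : Function.Bijective f := by
    constructor
    · rintro ⟨i, a, b⟩ ⟨j, c, d⟩ h
      have h' := congrArg Subtype.val h
      cases i <;> cases j <;> simp only [f, Bool.false_eq_true, if_false, if_true] at h'
      · obtain ⟨e1, e2⟩ := blk_inj (mul_right_cancel h')
        exact Prod.ext rfl (Prod.ext (Subtype.ext e1) (Subtype.ext e2))
      · exact absurd h'.symm (blk_ne_swp _ _ _ _)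
      · exact absurd h' (blk_ne_swp _ _ _ _)
      · obtain ⟨e1, e2⟩ := blk_inj h'
        exact Prod.ext rfl (Prod.ext (Subtype.ext e1) (Subtype.ext e2))
    · rintro ⟨g, a, ha, b, hb, rfl | rfl⟩
      · exact ⟨(true, ⟨a, ha⟩, ⟨b, hb⟩), Subtype.ext (by simp [f])⟩
      · exact ⟨(false, ⟨a, ha⟩, ⟨b, hb⟩), Subtype.ext (by simp [f])⟩
  rw [← Nat.card_eq_of_bijective f hf, Nat.card_prod, Nat.card_prod, Nat.card_eq_fintype_card (α := Bool)]
  simp [pow_two]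

theorem wr_sylow (hF : Odd (Fintype.card F)) {v : ℕ} (hv : 1 ≤ v) (hι : Fintype.card ι = 2 ^ v)
    (S : Sylow 2 (GL ι F)) : ∃ T : Sylow 2 (GL (ι ⊕ ι) F), (T : Subgroup (GL (ι ⊕ ι) F)) = wr S := by
  haveI : Fact (Nat.Prime 2) := ⟨Nat.prime_two⟩
  haveI : Nonempty ι := Fintype.card_pos_iff.1 (by rw [hι]; positivity)
  have h : Nat.card (wr S) = 2 ^ (Nat.card (GL (ι ⊕ ι) F)).factorization 2 := by
    rw [card_wr, S.card_eq_multiplicity, factorization_card_GL_double hF hv hι]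
    ring
  exact ⟨Sylow.ofCard (wr S) h, rfl⟩

variable (F ι) in
/-- The first block of vectors. -/
def inL : (ι → F) →ₗ[F] (ι ⊕ ι → F) where
  toFun a := Sum.elim a 0
  map_add' a b := by ext (i | i) <;> simp
  map_smul' c a := by ext (i | i) <;> simp

variable (F ι) in
/-- The second block of vectors. -/
def inR : (ι → F) →ₗ[F] (ι ⊕ ι → F) where
  toFun a := Sum.elim 0 a
  map_add' a b := by ext (i | i) <;> simp
  map_smul' c a := by ext (i | i) <;> simp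

theorem inLR (v : ι ⊕ ι → F) : inL F ι (v ∘ Sum.inl) + inR F ι (v ∘ Sum.inr) = v := by
  ext (i | i) <;> simp [inL, inR]

theorem blk_inL (a b : GL ι F) (v : ι → F) :
    (blk a b : Matrix (ι ⊕ ι) (ι ⊕ ι) F) *ᵥ inL F ι v = inL F ι ((a : Matrix ι ι F) *ᵥ v) := by
  simp [blk, inL, fromBlocks_mulVec]

theorem blk_inR (a b : GL ι F) (v : ι → F) :
    (blk a b : Matrix (ι ⊕ ι) (ι ⊕ ι) F) *ᵥ inR F ι v = inR F ι ((b : Matrix ι ι F) *ᵥ v) := by
  simp [blk, inR, fromBlocks_mulVec]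

theorem swp_inL (v : ι → F) : (swp F ι : Matrix (ι ⊕ ι) (ι ⊕ ι) F) *ᵥ inL F ι v = inR F ι (-v) := by
  simp [swp, inL, inR, fromBlocks_mulVec, Matrix.neg_mulVec]

theorem swp_inR (v : ι → F) : (swp F ι : Matrix (ι ⊕ ι) (ι ⊕ ι) F) *ᵥ inR F ι v = inL F ι v := by
  simp [swp, inL, inR, fromBlocks_mulVec]

theorem inL_eq_inR {a b : ι → F} (h : inL F ι a = inR F ι b) : a = 0 :=
  funext fun i => by simpa [inL, inR] using congrFun h (Sum.inl i)

/-- A subspace fixed by the sign change of the first block splits. -/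
theorem split_of_sign (h2 : (2 : F) ≠ 0) {W : Submodule F (ι ⊕ ι → F)}
    (hJ : ∀ v ∈ W, (blk (-1) 1 : GL (ι ⊕ ι) F).val *ᵥ v ∈ W) {v : ι ⊕ ι → F} (hv : v ∈ W) :
    inL F ι (v ∘ Sum.inl) ∈ W ∧ inR F ι (v ∘ Sum.inr) ∈ W := by
  have e : v + (blk (-1) 1 : GL (ι ⊕ ι) F).val *ᵥ v = (2 : F) • inR F ι (v ∘ Sum.inr) := by
    conv_lhs => rw [← inLR v, mulVec_add, blk_inL, blk_inR]
    rw [Units.val_neg, Units.val_one, Matrix.neg_mulVec, one_mulVec, one_mulVec, map_neg, two_smul]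
    abel
  have hR : inR F ι (v ∘ Sum.inr) ∈ W := by
    have := W.smul_mem (2 : F)⁻¹ (W.add_mem hv (hJ v hv))
    rwa [e, smul_smul, inv_mul_cancel₀ h2, one_smul] at this
  refine ⟨?_, hR⟩
  have := W.sub_mem hv hR
  rwa [show v - inR F ι (v ∘ Sum.inr) = inL F ι (v ∘ Sum.inl) by rw [sub_eq_iff_eq_add, inLR]] at this

variable (S : Sylow 2 (GL ι F))

theorem blk_mem {a : GL ι F} (ha : a ∈ (S : Subgroup (GL ι F)) ⊓ slK F ι) :
    blk a 1 ∈ wr S ⊓ slK F (ι ⊕ ι) ∧ blk 1 a ∈ wr S ⊓ slK F (ι ⊕ ι) := by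
  obtain ⟨hS, hd⟩ := Subgroup.mem_inf.1 ha
  rw [mem_slK] at hd
  refine ⟨Subgroup.mem_inf.2 ⟨⟨a, hS, 1, one_mem _, Or.inl rfl⟩, ?_⟩,
    Subgroup.mem_inf.2 ⟨⟨1, one_mem _, a, hS, Or.inl rfl⟩, ?_⟩⟩ <;>
  · rw [mem_slK, det_blk, map_one, hd, one_mul]

theorem swp_mem : swp F ι ∈ wr S ⊓ slK F (ι ⊕ ι) :=
  Subgroup.mem_inf.2 ⟨⟨1, one_mem _, 1, one_mem _, Or.inr (by rw [blk_one, one_mul])⟩,
    mem_slK.2 det_swp⟩

theorem irr_step (h2 : (2 : F) ≠ 0) (hI : Irr ((S : Subgroup (GL ι F)) ⊓ slK F ι))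
    {c : GL ι F} (hc : c ∈ (S : Subgroup (GL ι F)) ⊓ slK F ι) (hcc : c * c = -1) :
    Irr (wr S ⊓ slK F (ι ⊕ ι)) := by
  intro W hW
  have hJ : ∀ v ∈ W, (blk (-1) 1 : GL (ι ⊕ ι) F).val *ᵥ v ∈ W :=
    hW _ (by rw [← hcc, ← mul_one (1 : GL ι F), ← blk_mul]; exact mul_mem (blk_mem S hc).1 (blk_mem S hc).1)
  have hA := hI (W.comap (inL F ι)) (fun r hr v hv => by
    show inL F ι _ ∈ W
    rw [← blk_inL r 1]
    exact hW _ (blk_mem S hr).1 _ hv)
  rcases hA with h | h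
  · left
    refine (Submodule.eq_bot_iff W).2 fun v hv => ?_
    obtain ⟨h1, h2'⟩ := split_of_sign h2 hJ hv
    have e1 : v ∘ Sum.inl = 0 := (Submodule.eq_bot_iff _).1 h _ h1
    have e2 : v ∘ Sum.inr = 0 := (Submodule.eq_bot_iff _).1 h _ (by
      show inL F ι _ ∈ W
      rw [← swp_inR]; exact hW _ (swp_mem S) _ h2')
    rw [← inLR v, e1, e2, map_zero, map_zero, add_zero]
  · right
    refine Submodule.eq_top_iff'.2 fun v => ?_
    have hL : ∀ a, inL F ι a ∈ W := fun a => (Submodule.eq_top_iff'.1 h a : _)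
    have hR : ∀ a, inR F ι a ∈ W := fun a => by
      rw [← neg_neg a, ← swp_inL]; exact hW _ (swp_mem S) _ (hL _)
    rw [← inLR v]
    exact W.add_mem (hL _) (hR _)

theorem perm_blocks {r : GL (ι ⊕ ι) F} (hr : r ∈ wr S) :
    (∀ a, ∃ a', r.val *ᵥ inL F ι a = inL F ι a') ∧ (∀ b, ∃ b', r.val *ᵥ inR F ι b = inR F ι b') ∨
    (∀ a, ∃ a', r.val *ᵥ inL F ι a = inR F ι a') ∧ (∀ b, ∃ b', r.val *ᵥ inR F ι b = inL F ι b') := by
  obtain ⟨a, -, b, -, rfl | rfl⟩ := hr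
  · exact Or.inl ⟨fun v => ⟨_, blk_inL a b v⟩, fun v => ⟨_, blk_inR a b v⟩⟩
  · refine Or.inr ⟨fun v => ⟨(b : Matrix ι ι F) *ᵥ (-v), ?_⟩, fun v => ⟨(a : Matrix ι ι F) *ᵥ v, ?_⟩⟩
    · rw [Units.val_mul, ← mulVec_mulVec, swp_inL, blk_inR]
    · rw [Units.val_mul, ← mulVec_mulVec, swp_inR, blk_inL]

theorem fix_or_swap (h2 : (2 : F) ≠ 0) [Nonempty ι] (hI : Irr ((S : Subgroup (GL ι F)) ⊓ slK F ι))
    {c : GL ι F} (hc : c ∈ (S : Subgroup (GL ι F)) ⊓ slK F ι) (hcc : c * c = -1)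
    {x : GL (ι ⊕ ι) F} (hn : ∀ r ∈ wr S ⊓ slK F (ι ⊕ ι), x⁻¹ * r * x ∈ wr S ⊓ slK F (ι ⊕ ι)) :
    ((∀ a, ∃ a', x.val *ᵥ inL F ι a = inL F ι a') ∧ (∀ b, ∃ b', x.val *ᵥ inR F ι b = inR F ι b')) ∨
    ((∀ a, ∃ a', x.val *ᵥ inL F ι a = inR F ι a') ∧ (∀ b, ∃ b', x.val *ᵥ inR F ι b = inL F ι b')) := by
  let f : (ι ⊕ ι → F) →ₗ[F] (ι ⊕ ι → F) := Matrix.mulVecLin x.val
  have hfi : Function.Injective f := fun v w h => by
    simpa [f, mulVec_mulVec] using congrArg (fun z => (x⁻¹).val *ᵥ z) h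
  have hfs : Function.Surjective f := fun w => ⟨(x⁻¹).val *ᵥ w, by simp [f, mulVec_mulVec]⟩
  set W := (LinearMap.range (inL F ι)).map f with hWdef
  set W' := (LinearMap.range (inR F ι)).map f with hWdef'
  have hdisj : ∀ v, v ∈ W → v ∈ W' → v = 0 := by
    rintro _ ⟨_, ⟨a, rfl⟩, rfl⟩ ⟨_, ⟨b, rfl⟩, h⟩
    rw [inL_eq_inR (hfi h).symm, map_zero, map_zero]
  have hsup : ∀ v, ∃ w ∈ W, ∃ w' ∈ W', w + w' = v := by
    intro v
    obtain ⟨u, rfl⟩ := hfs v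
    exact ⟨_, ⟨_, ⟨u ∘ Sum.inl, rfl⟩, rfl⟩, _, ⟨_, ⟨u ∘ Sum.inr, rfl⟩, rfl⟩, by rw [← map_add, inLR]⟩
  have hperm : ∀ r ∈ wr S ⊓ slK F (ι ⊕ ι),
      ((∀ v ∈ W, r.val *ᵥ v ∈ W) ∧ (∀ v ∈ W', r.val *ᵥ v ∈ W')) ∨
      ((∀ v ∈ W, r.val *ᵥ v ∈ W') ∧ (∀ v ∈ W', r.val *ᵥ v ∈ W)) := by
    intro r hr
    have e : ∀ u, r.val *ᵥ f u = f ((x⁻¹ * r * x).val *ᵥ u) := fun u => by
      simp [f, mulVec_mulVec, mul_assoc]
    rcases perm_blocks S (Subgroup.mem_inf.1 (hn r hr)).1 with ⟨h1, h1'⟩ | ⟨h1, h1'⟩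
    · left; constructor
      · rintro _ ⟨_, ⟨a, rfl⟩, rfl⟩
        obtain ⟨a', ha'⟩ := h1 a
        exact ⟨_, ⟨a', rfl⟩, by rw [e, ha']⟩
      · rintro _ ⟨_, ⟨a, rfl⟩, rfl⟩
        obtain ⟨a', ha'⟩ := h1' a
        exact ⟨_, ⟨a', rfl⟩, by rw [e, ha']⟩
    · right; constructor
      · rintro _ ⟨_, ⟨a, rfl⟩, rfl⟩
        obtain ⟨a', ha'⟩ := h1 a
        exact ⟨_, ⟨a', rfl⟩, by rw [e, ha']⟩
      · rintro _ ⟨_, ⟨a, rfl⟩, rfl⟩
        obtain ⟨a', ha'⟩ := h1' a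
        exact ⟨_, ⟨a', rfl⟩, by rw [e, ha']⟩
  have hJ : ∀ Z : Submodule F (ι ⊕ ι → F), (Z = W ∨ Z = W') →
      ∀ v ∈ Z, (blk (-1) 1 : GL (ι ⊕ ι) F).val *ᵥ v ∈ Z := by
    intro Z hZ v hv
    rw [← hcc, ← mul_one (1 : GL ι F), ← blk_mul, Units.val_mul, ← mulVec_mulVec]
    rcases hperm _ (blk_mem S hc).1 with ⟨h1, h1'⟩ | ⟨h1, h1'⟩ <;> rcases hZ with rfl | rfl
    exacts [h1 _ (h1 _ hv), h1' _ (h1' _ hv), h1' _ (h1 _ hv), h1 _ (h1' _ hv)]
  have hne : ∀ (e : (ι → F) →ₗ[F] (ι ⊕ ι → F)), (∀ a, e a = 0 → a = 0) → (LinearMap.range e).map f ≠ ⊥ := by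
    intro e he h
    obtain ⟨i⟩ := ‹Nonempty ι›
    have h1 : f (e (Pi.single i 1)) = 0 :=
      (Submodule.eq_bot_iff _).1 h _ ⟨_, ⟨_, rfl⟩, rfl⟩
    have := he _ (hfi (h1.trans (map_zero f).symm))
    simpa using congrFun this i
  have hneW : W ≠ ⊥ := hne _ fun a h => funext fun i => by simpa [inL] using congrFun h (Sum.inl i)
  have hneW' : W' ≠ ⊥ := hne _ fun a h => funext fun i => by simpa [inR] using congrFun h (Sum.inr i)
  -- the elements supported on one block fix `W` and `W'`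
  have hfix : ∀ q ∈ (S : Subgroup (GL ι F)) ⊓ slK F ι, ∀ g : GL (ι ⊕ ι) F, (g = blk q 1 ∨ g = blk 1 q) →
      ∀ Z : Submodule F (ι ⊕ ι → F), (Z = W ∨ Z = W') → ∀ v ∈ Z, g.val *ᵥ v ∈ Z := by
    intro q hq g hg Z hZ v hv
    have hgR : g ∈ wr S ⊓ slK F (ι ⊕ ι) := by
      rcases hg with rfl | rfl; exacts [(blk_mem S hq).1, (blk_mem S hq).2]
    rcases hperm g hgR with ⟨h1, h1'⟩ | ⟨h1, h1'⟩
    · rcases hZ with rfl | rfl; exacts [h1 v hv, h1' v hv]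
    exfalso
    have key : ∀ (e e' : (ι → F) →ₗ[F] (ι ⊕ ι → F)), (∀ b, g.val *ᵥ e' b = e' b) →
        (∀ Y : Submodule F (ι ⊕ ι → F), (Y = W ∨ Y = W') → ∀ u ∈ Y, ∃ a b, u = e a + e' b ∧ e a ∈ Y ∧ e' b ∈ Y) →
        (∀ u, ∃ a, u = e a) := by
      intro e e' hfe hsp u
      obtain ⟨w, hw, w', hw', rfl⟩ := hsup u
      obtain ⟨a, b, rfl, -, hb⟩ := hsp W (Or.inl rfl) w hw
      obtain ⟨a', b', rfl, -, hb'⟩ := hsp W' (Or.inr rfl) w' hw'
      have z1 : e' b = 0 := hdisj _ hb (by have := h1 _ hb; rwa [hfe] at this)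
      have z2 : e' b' = 0 := hdisj _ (by have := h1' _ hb'; rwa [hfe] at this) hb'
      exact ⟨a + a', by rw [z1, z2, map_add]; abel⟩
    obtain ⟨i⟩ := ‹Nonempty ι›
    rcases hg with rfl | rfl
    · obtain ⟨a, ha⟩ := key (inL F ι) (inR F ι) (fun b => by rw [blk_inR]; simp) (fun Y hY u hu =>
        ⟨_, _, (inLR u).symm, split_of_sign h2 (hJ Y hY) hu⟩) (inR F ι (Pi.single i 1))
      simpa [inL, inR] using congrFun ha (Sum.inr i)
    · obtain ⟨a, ha⟩ := key (inR F ι) (inL F ι) (fun b => by rw [blk_inL]; simp) (fun Y hY u hu =>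
        ⟨_, _, ((add_comm _ _).trans (inLR u)).symm, (split_of_sign h2 (hJ Y hY) hu).2,
          (split_of_sign h2 (hJ Y hY) hu).1⟩) (inL F ι (Pi.single i 1))
      simpa [inL, inR] using congrFun ha (Sum.inl i)
  have hstd : ∀ Z : Submodule F (ι ⊕ ι → F), (Z = W ∨ Z = W') →
      Z = LinearMap.range (inL F ι) ∨ Z = LinearMap.range (inR F ι) := by
    intro Z hZ
    have hA := hI (Z.comap (inL F ι)) fun r hr v hv => by
      show inL F ι _ ∈ Z
      rw [← blk_inL r 1]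
      exact hfix r hr _ (Or.inl rfl) Z hZ _ hv
    have hB := hI (Z.comap (inR F ι)) fun r hr v hv => by
      show inR F ι _ ∈ Z
      rw [← blk_inR 1 r]
      exact hfix r hr _ (Or.inr rfl) Z hZ _ hv
    have hsp := fun {v} (hv : v ∈ Z) => split_of_sign h2 (hJ Z hZ) hv
    rcases hA with hA | hA <;> rcases hB with hB | hB
    · exfalso
      have : Z = ⊥ := (Submodule.eq_bot_iff Z).2 fun v hv => by
        rw [← inLR v, (Submodule.eq_bot_iff _).1 hA _ (hsp hv).1, (Submodule.eq_bot_iff _).1 hB _ (hsp hv).2,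
          map_zero, map_zero, add_zero]
      rcases hZ with rfl | rfl; exacts [hneW this, hneW' this]
    · right
      apply le_antisymm
      · intro v hv
        refine ⟨v ∘ Sum.inr, ?_⟩
        have e := inLR v
        rwa [(Submodule.eq_bot_iff _).1 hA _ (hsp hv).1, map_zero, zero_add] at e
      · rintro _ ⟨b, rfl⟩
        exact (Submodule.eq_top_iff'.1 hB b : _)
    · left
      apply le_antisymm
      · intro v hv
        refine ⟨v ∘ Sum.inl, ?_⟩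
        have e := inLR v
        rwa [(Submodule.eq_bot_iff _).1 hB _ (hsp hv).2, map_zero, add_zero] at e
      · rintro _ ⟨b, rfl⟩
        exact (Submodule.eq_top_iff'.1 hA b : _)
    · exfalso
      have htop : ∀ v, v ∈ Z := fun v => by
        rw [← inLR v]; exact Z.add_mem (Submodule.eq_top_iff'.1 hA _ : _) (Submodule.eq_top_iff'.1 hB _ : _)
      rcases hZ with rfl | rfl
      · exact hneW' ((Submodule.eq_bot_iff _).2 fun v hv => hdisj v (htop v) hv)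
      · exact hneW ((Submodule.eq_bot_iff _).2 fun v hv => hdisj v hv (htop v))
  have hWne : W ≠ W' := fun h => hneW ((Submodule.eq_bot_iff _).2 fun v hv => hdisj v hv (h ▸ hv))
  rcases hstd W (Or.inl rfl) with hW | hW <;> rcases hstd W' (Or.inr rfl) with hW' | hW'
  · exact absurd (hW.trans hW'.symm) hWne
  · left
    constructor
    · intro a
      obtain ⟨a', ha'⟩ : f (inL F ι a) ∈ LinearMap.range (inL F ι) := hW ▸ ⟨_, ⟨a, rfl⟩, rfl⟩
      exact ⟨a', ha'.symm⟩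
    · intro a
      obtain ⟨a', ha'⟩ : f (inR F ι a) ∈ LinearMap.range (inR F ι) := hW' ▸ ⟨_, ⟨a, rfl⟩, rfl⟩
      exact ⟨a', ha'.symm⟩
  · right
    constructor
    · intro a
      obtain ⟨a', ha'⟩ : f (inL F ι a) ∈ LinearMap.range (inR F ι) := hW ▸ ⟨_, ⟨a, rfl⟩, rfl⟩
      exact ⟨a', ha'.symm⟩
    · intro a
      obtain ⟨a', ha'⟩ : f (inR F ι a) ∈ LinearMap.range (inL F ι) := hW' ▸ ⟨_, ⟨a, rfl⟩, rfl⟩
      exact ⟨a', ha'.symm⟩
  · exact absurd (hW.trans hW'.symm) hWne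

theorem oddCentral_step (h2 : (2 : F) ≠ 0) [Nonempty ι] (hI : Irr ((S : Subgroup (GL ι F)) ⊓ slK F ι))
    {c : GL ι F} (hc : c ∈ (S : Subgroup (GL ι F)) ⊓ slK F ι) (hcc : c * c = -1)
    (hO : OddCentral (S : Subgroup (GL ι F))) : OddCentral (wr S ⊓ slK F (ι ⊕ ι)) := by
  intro x hx hn
  haveI : Finite (GL (ι ⊕ ι) F) := inferInstance
  have hn' : ∀ r ∈ wr S ⊓ slK F (ι ⊕ ι), x⁻¹ * r * x ∈ wr S ⊓ slK F (ι ⊕ ι) := by
    intro r hr
    have hmap : (wr S ⊓ slK F (ι ⊕ ι)).map (MulAut.conj x).toMonoidHom = wr S ⊓ slK F (ι ⊕ ι) :=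
      Subgroup.eq_of_le_of_card_ge (by rintro _ ⟨s, hs, rfl⟩; exact hn s hs)
        (by rw [Subgroup.card_map_of_injective (MulAut.conj x).injective])
    obtain ⟨s, hs, e⟩ := hmap.symm ▸ hr
    have : x⁻¹ * r * x = s := by rw [← e]; simp [mul_assoc]
    rwa [this]
  rcases fix_or_swap S h2 hI hc hcc hn' with ⟨hL, hR⟩ | ⟨hL, hR⟩
  swap
  · exfalso
    obtain ⟨k, hk⟩ := hx
    have key : ∀ (j : ℕ) (a : ι → F), ∃ a', (x ^ (2 * j + 1)).val *ᵥ inL F ι a = inR F ι a' := by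
      intro j
      induction j with
      | zero => simpa using hL
      | succ j ih =>
        intro a
        obtain ⟨a', ha'⟩ := ih a
        obtain ⟨b, hb⟩ := hR a'
        obtain ⟨b', hb'⟩ := hL b
        refine ⟨b', ?_⟩
        rw [show 2 * (j + 1) + 1 = 2 * j + 1 + 1 + 1 by ring, pow_succ', pow_succ' x (2 * j + 1),
          Units.val_mul, Units.val_mul, ← mulVec_mulVec, ← mulVec_mulVec, ha', hb, hb']
    obtain ⟨i⟩ := ‹Nonempty ι›
    obtain ⟨a', ha'⟩ := key k (Pi.single i 1)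
    rw [← hk, pow_orderOf_eq_one, Units.val_one, one_mulVec] at ha'
    simpa [inL, inR] using congrFun ha' (Sum.inl i)
  -- `x` is block diagonal
  have hblk : ∀ y : GL (ι ⊕ ι) F, (∀ a, ∃ a', y.val *ᵥ inL F ι a = inL F ι a') →
      (∀ b, ∃ b', y.val *ᵥ inR F ι b = inR F ι b') →
      y.val = fromBlocks y.val.toBlocks₁₁ 0 0 y.val.toBlocks₂₂ := by
    intro y h1 h2'
    conv_lhs => rw [← fromBlocks_toBlocks y.val]
    congr 1
    · ext i j
      obtain ⟨b, hb⟩ := h2' (Pi.single j 1)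
      have := congrFun hb (Sum.inl i)
      simp only [inR, LinearMap.coe_mk, AddHom.coe_mk, Sum.elim_inl, Pi.zero_apply] at this
      rw [show (Sum.elim (0 : ι → F) (Pi.single j 1)) = Pi.single (Sum.inr j) (1 : F) by
        ext (l | l) <;> simp [Pi.single_apply], mulVec_single_one] at this
      simpa [toBlocks₁₂] using this
    · ext i j
      obtain ⟨b, hb⟩ := h1 (Pi.single j 1)
      have := congrFun hb (Sum.inr i)
      simp only [inL, LinearMap.coe_mk, AddHom.coe_mk, Sum.elim_inr, Pi.zero_apply] at this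
      rw [show (Sum.elim (Pi.single j 1) (0 : ι → F)) = Pi.single (Sum.inl j) (1 : F) by
        ext (l | l) <;> simp [Pi.single_apply], mulVec_single_one] at this
      simpa [toBlocks₂₁] using this
  have hxi : (∀ a, ∃ a', (x⁻¹).val *ᵥ inL F ι a = inL F ι a') ∧
      (∀ b, ∃ b', (x⁻¹).val *ᵥ inR F ι b = inR F ι b') := by
    have hpow : ∀ n : ℕ, (∀ a, ∃ a', (x ^ n).val *ᵥ inL F ι a = inL F ι a') ∧
        (∀ b, ∃ b', (x ^ n).val *ᵥ inR F ι b = inR F ι b') := by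
      intro n
      induction n with
      | zero => exact ⟨fun a => ⟨a, by simp⟩, fun a => ⟨a, by simp⟩⟩
      | succ n ih =>
        constructor
        · intro a
          obtain ⟨a', ha'⟩ := ih.1 a
          obtain ⟨a'', ha''⟩ := hL a'
          exact ⟨a'', by rw [pow_succ', Units.val_mul, ← mulVec_mulVec, ha', ha'']⟩
        · intro a
          obtain ⟨a', ha'⟩ := ih.2 a
          obtain ⟨a'', ha''⟩ := hR a'
          exact ⟨a'', by rw [pow_succ', Units.val_mul, ← mulVec_mulVec, ha', ha'']⟩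
    have : x⁻¹ = x ^ (orderOf x - 1) := inv_eq_of_mul_eq_one_right (by
      rw [← pow_succ', Nat.sub_add_cancel (orderOf_pos x), pow_orderOf_eq_one])
    rw [this]; exact hpow _
  have ex := hblk x hL hR
  have exi := hblk x⁻¹ hxi.1 hxi.2
  have e1 : x.val * (x⁻¹).val = 1 := x.mul_inv
  have e2 : (x⁻¹).val * x.val = 1 := x.inv_mul
  rw [ex, exi, fromBlocks_multiply, ← fromBlocks_one, fromBlocks_inj] at e1 e2
  simp only [Matrix.mul_zero, Matrix.zero_mul, add_zero, zero_add] at e1 e2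
  obtain ⟨x₁, hx₁⟩ : ∃ u : GL ι F, u.val = x.val.toBlocks₁₁ := ⟨⟨_, _, e1.1, e2.1⟩, rfl⟩
  obtain ⟨x₂, hx₂⟩ : ∃ u : GL ι F, u.val = x.val.toBlocks₂₂ := ⟨⟨_, _, e1.2.2.2, e2.2.2.2⟩, rfl⟩
  obtain rfl : x = blk x₁ x₂ := Units.ext (by rw [ex, ← hx₁, ← hx₂]; rfl)
  -- the components
  have hord : orderOf x₁ ∣ orderOf (blk x₁ x₂) ∧ orderOf x₂ ∣ orderOf (blk x₁ x₂) := by
    have hp : ∀ n : ℕ, blk x₁ x₂ ^ n = blk (x₁ ^ n) (x₂ ^ n) := by
      intro n; induction n with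
      | zero => simp [blk_one]
      | succ n ih => rw [pow_succ, ih, blk_mul, ← pow_succ, ← pow_succ]
    have := hp (orderOf (blk x₁ x₂))
    rw [pow_orderOf_eq_one, ← blk_one] at this
    exact ⟨orderOf_dvd_of_pow_eq_one (blk_inj this).1.symm, orderOf_dvd_of_pow_eq_one (blk_inj this).2.symm⟩
  have hnorm : ∀ a ∈ (S : Subgroup (GL ι F)),
      x₁ * a * x₁⁻¹ ∈ (S : Subgroup (GL ι F)) ∧ x₂ * a * x₂⁻¹ ∈ (S : Subgroup (GL ι F)) := by
    intro a ha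
    have h1 : blk a a⁻¹ ∈ wr S ⊓ slK F (ι ⊕ ι) := Subgroup.mem_inf.2
      ⟨⟨a, ha, a⁻¹, inv_mem ha, Or.inl rfl⟩, by rw [mem_slK, det_blk, map_inv, mul_inv_cancel]⟩
    have h1' : blk a⁻¹ a ∈ wr S ⊓ slK F (ι ⊕ ι) := Subgroup.mem_inf.2
      ⟨⟨a⁻¹, inv_mem ha, a, ha, Or.inl rfl⟩, by rw [mem_slK, det_blk, map_inv, inv_mul_cancel]⟩
    have g1 := (Subgroup.mem_inf.1 (hn _ h1)).1
    have g2 := (Subgroup.mem_inf.1 (hn _ h1')).1
    rw [blk_inv, blk_mul, blk_mul] at g1 g2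
    obtain ⟨u, hu, w, hw, e | e⟩ := g1
    · obtain ⟨u', hu', w', hw', e' | e'⟩ := g2
      · exact ⟨(blk_inj e).1 ▸ hu, (blk_inj e').2 ▸ hw'⟩
      · exact absurd e' (blk_ne_swp _ _ _ _)
    · exact absurd e (blk_ne_swp _ _ _ _)
  have c1 : x₁ ∈ Subgroup.center (GL ι F) := hO x₁ (hx.of_dvd_nat hord.1) fun a ha => (hnorm a ha).1
  have c2 : x₂ ∈ Subgroup.center (GL ι F) := hO x₂ (hx.of_dvd_nat hord.2) fun a ha => (hnorm a ha).2
  -- the swap
  have h12 : x₁ = x₂ := by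
    have g1 := (Subgroup.mem_inf.1 (mul_mem (hn _ (swp_mem S)) (inv_mem (swp_mem S)))).1
    rw [blk_inv, mul_assoc (blk x₁ x₂), swp_blk, ← mul_assoc, blk_mul, mul_inv_cancel_right] at g1
    obtain ⟨u, hu, w, -, e | e⟩ := g1
    swap
    · exact absurd e (blk_ne_swp _ _ _ _)
    obtain ⟨rfl, -⟩ := blk_inj e
    obtain ⟨j, hj⟩ := S.2 ⟨_, hu⟩
    have hj' : (x₁ * x₂⁻¹) ^ 2 ^ j = 1 := by simpa using congrArg Subtype.val hj
    have hcm : Commute x₁ x₂⁻¹ := (Subgroup.mem_center_iff.1 c1 x₂⁻¹).symm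
    have hn1 : (x₁ * x₂⁻¹) ^ (orderOf x₁ * orderOf x₂) = 1 := by
      rw [hcm.mul_pow, pow_mul, pow_orderOf_eq_one, one_pow, one_mul, inv_pow, mul_comm, pow_mul,
        pow_orderOf_eq_one, one_pow, inv_one]
    have := (pow_gcd_eq_one (a := x₁ * x₂⁻¹)).2 ⟨hn1, hj'⟩
    rw [Nat.Coprime.pow_right j (Nat.coprime_two_right.2 ((hx.of_dvd_nat hord.1).mul (hx.of_dvd_nat hord.2))),
      pow_one, mul_inv_eq_one] at this
    exact this
  subst h12
  rw [GeneralLinearGroup.center_eq_range_scalar] at c1 ⊢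
  obtain ⟨r, rfl⟩ := c1
  refine ⟨r, Units.ext ?_⟩
  simp only [blk, GeneralLinearGroup.coe_scalar]
  ext (i | i) (j | j) <;> simp [Matrix.diagonal_apply]

theorem good_step (hF : Odd (Fintype.card F)) {v : ℕ} (hv : 1 ≤ v) (hι : Fintype.card ι = 2 ^ v)
    (hG : Good F ι) :
    Good F (ι ⊕ ι) ∧
      ∀ T : Sylow 2 (GL (ι ⊕ ι) F), OddCentral ((T : Subgroup (GL (ι ⊕ ι) F)) ⊓ slK F (ι ⊕ ι)) := by
  haveI : Fact (Nat.Prime 2) := ⟨Nat.prime_two⟩
  haveI : Nonempty ι := Fintype.card_pos_iff.1 (by rw [hι]; positivity)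
  have h2 : (2 : F) ≠ 0 := Classical.two_ne_zero_of_odd_card hF
  obtain ⟨S⟩ : Nonempty (Sylow 2 (GL ι F)) := inferInstance
  obtain ⟨hI, ⟨c, hc, hcc⟩, hO⟩ := hG S
  obtain ⟨T₀, hT₀⟩ := wr_sylow hF hv hι S
  have hN := oddCentral_step S h2 hI hc hcc hO
  have hI' := irr_step S h2 hI hc hcc
  rw [← hT₀] at hN hI'
  refine ⟨good_of_one T₀ hI' ⟨blk c c, ?_, ?_⟩ ?_, fun T => ?_⟩
  · rw [hT₀, show blk c c = blk c 1 * blk 1 c by rw [blk_mul, mul_one, one_mul]]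
    exact mul_mem (blk_mem S hc).1 (blk_mem S hc).2
  · rw [blk_mul, hcc]
    refine Units.ext ?_
    simp only [blk, Units.val_neg, Units.val_one]
    rw [← fromBlocks_one, fromBlocks_neg, neg_zero]
  · intro x hx hn
    refine hN x hx fun r hr => Subgroup.mem_inf.2 ⟨hn r (Subgroup.mem_inf.1 hr).1, ?_⟩
    exact Subgroup.Normal.conj_mem inferInstance r (Subgroup.mem_inf.1 hr).2 x
  · obtain ⟨g, hg⟩ := exists_cjg T₀ T
    rw [hg, cjg_inf_slK]
    exact hN.conj g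

end Cfsg.Agent.Lib.Pronormal2
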