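import Cfsg.Agent.Lib.Classical.SLTwoSylow

/-!
The properties of Sylow `2`-subgroups of `GL` and of their intersections with `SL`, for odd `q`.
-/

set_option autoImplicit false
set_option linter.unusedSectionVars false

namespace Cfsg.Agent.Lib.Pronormal2

open Matrix

universe u

variable {F : Type u} [Field F] [Fintype F] {ι : Type} [Fintype ι] [DecidableEq ι]

variable (ι F) in
/-- `SL` inside `GL`. -/
abbrev slK : Subgroup (GL ι F) := (GeneralLinearGroup.det : GL ι F →* Fˣ).ker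

/-- The only subspaces invariant under `R` are trivial. -/
def Irr (R : Subgroup (GL ι F)) : Prop :=
  ∀ W : Submodule F (ι → F), (∀ r ∈ R, ∀ v ∈ W, (r : Matrix ι ι F) *ᵥ v ∈ W) → W = ⊥ ∨ W = ⊤

/-- An element of odd order normalizing `R` is central. -/
def OddCentral (R : Subgroup (GL ι F)) : Prop :=
  ∀ x : GL ι F, Odd (orderOf x) → (∀ r ∈ R, x * r * x⁻¹ ∈ R) → x ∈ Subgroup.center (GL ι F)

variable (ι F) in
/-- The induction hypothesis. -/
def Good : Prop :=
  ∀ S : Sylow 2 (GL ι F),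
    Irr ((S : Subgroup (GL ι F)) ⊓ slK F ι) ∧
    (∃ c ∈ (S : Subgroup (GL ι F)) ⊓ slK F ι, c * c = -1) ∧ OddCentral (S : Subgroup (GL ι F))

/-- Conjugate of a subgroup. -/
abbrev cjg (g : GL ι F) (R : Subgroup (GL ι F)) : Subgroup (GL ι F) :=
  R.map (MulAut.conj g).toMonoidHom

theorem mem_cjg {g x : GL ι F} {R : Subgroup (GL ι F)} : x ∈ cjg g R ↔ g⁻¹ * x * g ∈ R := by
  constructor
  · rintro ⟨y, hy, rfl⟩
    simpa [mul_assoc] using hy
  · intro h
    exact ⟨_, h, by simp [mul_assoc]⟩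

theorem exists_cjg (S T : Sylow 2 (GL ι F)) :
    ∃ g : GL ι F, (T : Subgroup (GL ι F)) = cjg g S := by
  haveI : Fact (Nat.Prime 2) := ⟨Nat.prime_two⟩
  obtain ⟨g, rfl⟩ := MulAction.exists_smul_eq (GL ι F) S T
  exact ⟨g, by rw [Sylow.coe_subgroup_smul]; rfl⟩

theorem cjg_inf_slK (g : GL ι F) (R : Subgroup (GL ι F)) :
    cjg g R ⊓ slK F ι = cjg g (R ⊓ slK F ι) := by
  ext x
  simp only [Subgroup.mem_inf, mem_cjg]
  refine and_congr_right fun _ => ⟨fun h => ?_, fun h => ?_⟩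
  · simpa using Subgroup.Normal.conj_mem (inferInstance : (slK F ι).Normal) x h g⁻¹
  · simpa [mul_assoc] using Subgroup.Normal.conj_mem (inferInstance : (slK F ι).Normal) _ h g

theorem Irr.conj {R : Subgroup (GL ι F)} (h : Irr R) (g : GL ι F) : Irr (cjg g R) := by
  intro W hW
  let f : (ι → F) →ₗ[F] (ι → F) := Matrix.mulVecLin (g : Matrix ι ι F)
  have hinv : ∀ r ∈ R, ∀ v ∈ W.comap f, (r : Matrix ι ι F) *ᵥ v ∈ W.comap f := by
    intro r hr v hv
    have h2 := hW (g * r * g⁻¹) (mem_cjg.2 (by simpa [mul_assoc] using hr)) _ hv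
    show (g : Matrix ι ι F) *ᵥ ((r : Matrix ι ι F) *ᵥ v) ∈ W
    simp only [f, Matrix.mulVecLin_apply, Units.val_mul, mulVec_mulVec, mul_assoc, Units.inv_mul,
      mul_one] at h2
    rwa [mulVec_mulVec]
  have hsurj : Function.Surjective f := fun w =>
    ⟨((g⁻¹ : GL ι F) : Matrix ι ι F) *ᵥ w, by simp [f, mulVec_mulVec]⟩
  rcases h _ hinv with h' | h'
  · left; rw [← Submodule.map_comap_eq_of_surjective hsurj W, h', Submodule.map_bot]
  · right; rw [← Submodule.map_comap_eq_of_surjective hsurj W, h', Submodule.map_top,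
      LinearMap.range_eq_top.2 hsurj]

theorem OddCentral.conj {R : Subgroup (GL ι F)} (h : OddCentral R) (g : GL ι F) :
    OddCentral (cjg g R) := by
  intro x hx hn
  have h1 : g⁻¹ * x * g ∈ Subgroup.center (GL ι F) := by
    refine h _ ?_ fun r hr => ?_
    · rw [show g⁻¹ * x * g = MulAut.conj g⁻¹ x by simp, MulEquiv.orderOf_eq]
      exact hx
    · have h2 := mem_cjg.1 (hn (g * r * g⁻¹) (mem_cjg.2 (by simpa [mul_assoc] using hr)))
      simpa [mul_assoc] using h2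
  have h2 := Subgroup.Normal.conj_mem (inferInstance : (Subgroup.center (GL ι F)).Normal) _ h1 g
  simpa [mul_assoc] using h2

theorem good_of_one (S : Sylow 2 (GL ι F)) (h1 : Irr ((S : Subgroup (GL ι F)) ⊓ slK F ι))
    (h2 : ∃ c ∈ (S : Subgroup (GL ι F)) ⊓ slK F ι, c * c = -1)
    (h3 : OddCentral (S : Subgroup (GL ι F))) : Good F ι := by
  intro T
  obtain ⟨g, hg⟩ := exists_cjg S T
  rw [hg, cjg_inf_slK]
  refine ⟨h1.conj g, ?_, h3.conj g⟩
  obtain ⟨c, hc, he⟩ := h2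
  refine ⟨g * c * g⁻¹, mem_cjg.2 (by simpa [mul_assoc] using hc), ?_⟩
  calc g * c * g⁻¹ * (g * c * g⁻¹) = g * (c * c) * g⁻¹ := by group
    _ = -1 := by rw [he]; simp

theorem neg_one_mem (S : Sylow 2 (GL ι F)) : (-1 : GL ι F) ∈ (S : Subgroup (GL ι F)) := by
  haveI : Fact (Nat.Prime 2) := ⟨Nat.prime_two⟩
  have hz : (-1 : GL ι F) ∈ Subgroup.center (GL ι F) := Subgroup.mem_center_iff.2 fun y => by simp
  have hZ : IsPGroup 2 (Subgroup.zpowers (-1 : GL ι F)) := by
    obtain ⟨j, -, hj⟩ := (Nat.dvd_prime_pow Nat.prime_two).1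
      (orderOf_dvd_of_pow_eq_one (show (-1 : GL ι F) ^ 2 ^ 1 = 1 by simp))
    exact IsPGroup.of_card (n := j) ((Nat.card_zpowers _).trans hj)
  haveI : (Subgroup.zpowers (-1 : GL ι F)).Normal :=
    ⟨fun y hy g => by rw [Subgroup.mem_center_iff.1 ((Subgroup.zpowers_le.2 hz) hy) g]; simpa using hy⟩
  have := S.3 (S.2.to_sup_of_normal_right hZ) le_sup_left
  exact this ▸ Subgroup.mem_sup_right (Subgroup.mem_zpowers _)

/-- The power of odd order and the power of `2`-power order. -/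
theorem exists_parts {G : Type*} [Group G] [Finite G] (x : G) :
    ∃ i j : ℤ, x = x ^ i * x ^ j ∧ Odd (orderOf (x ^ i)) ∧ ∃ k : ℕ, (x ^ j) ^ 2 ^ k = 1 := by
  obtain ⟨k, m, hm, hn⟩ := Nat.exists_eq_two_pow_mul_odd (orderOf_pos x).ne'
  have hcop : IsCoprime ((2 : ℤ) ^ k) (m : ℤ) := by
    have := Nat.Coprime.pow_left k (Nat.coprime_two_left.2 hm)
    rw [Int.isCoprime_iff_nat_coprime, Int.natAbs_pow]
    simpa using this
  obtain ⟨u, v, huv⟩ := hcop
  refine ⟨2 ^ k * u, m * v, ?_, ?_, k, ?_⟩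
  · rw [← _root_.zpow_add, show (2 : ℤ) ^ k * u + m * v = 1 by linear_combination huv, _root_.zpow_one]
  · refine hm.of_dvd_nat (orderOf_dvd_of_pow_eq_one ?_)
    rw [← zpow_natCast, ← _root_.zpow_mul, show (2 : ℤ) ^ k * u * m = (orderOf x : ℤ) * u by
      rw [hn]; push_cast; ring, _root_.zpow_mul, zpow_natCast, pow_orderOf_eq_one, _root_.one_zpow]
  · rw [← zpow_natCast, ← _root_.zpow_mul, show (m : ℤ) * v * ((2 ^ k : ℕ) : ℤ) = (orderOf x : ℤ) * v by
      rw [hn]; push_cast; ring, _root_.zpow_mul, zpow_natCast, pow_orderOf_eq_one, _root_.one_zpow]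

theorem mem_sylow_of_normalizes {G : Type*} [Group G] [Finite G] (S : Sylow 2 G) {x : G}
    (hn : ∀ s ∈ (S : Subgroup G), x * s * x⁻¹ ∈ (S : Subgroup G)) {k : ℕ} (hx : x ^ 2 ^ k = 1) :
    x ∈ (S : Subgroup G) := by
  haveI : Fact (Nat.Prime 2) := ⟨Nat.prime_two⟩
  have hxn : x ∈ Subgroup.normalizer ((S : Subgroup G) : Set G) :=
    Subgroup.mem_normalizer_iff_map_conj_eq.2 (Subgroup.eq_of_le_of_card_ge
      (by rintro _ ⟨s, hs, rfl⟩; exact hn s hs)
      (by rw [Subgroup.card_map_of_injective (MulAut.conj x).injective]))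
  have hX : IsPGroup 2 (Subgroup.zpowers x) := by
    obtain ⟨j, -, hj⟩ := (Nat.dvd_prime_pow Nat.prime_two).1 (orderOf_dvd_of_pow_eq_one hx)
    exact IsPGroup.of_card (n := j) ((Nat.card_zpowers _).trans hj)
  have := S.3 (S.2.to_sup_of_normal_left' hX ((Subgroup.zpowers_le).2 hxn)) le_sup_left
  exact this ▸ Subgroup.mem_sup_right (Subgroup.mem_zpowers _)

end Cfsg.Agent.Lib.Pronormal2
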