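import Cfsg.Agent.Lib.BN.Overgroup.Linear
import Cfsg.Prelude.Def_HallClasses

/-!
Overgroups of `U` are pronormal when the torus of the (B, N)-pair is commutative.
-/

set_option autoImplicit false
set_option linter.unusedSectionVars false

namespace Cfsg.Agent.Lib.Pronormal2

open Cfsg Cfsg.Agent.Lib.BN Cfsg.Agent.Lib.BN.FixSylow Cfsg.Agent.Lib.BN.Overgroup

variable {p : ℕ} {G : Type*} [Group G] (D : PData p G)

theorem mon_conj_mem (hab : ∀ s ∈ D.P.B ⊓ D.P.N, ∀ t ∈ D.P.B ⊓ D.P.N, s * t = t * s)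
    {H : Subgroup G} (hUH : D.U ≤ H) {s : D.P.S} {n : D.P.N} (hn : cls D.P n = si D.P s)
    (hnH : (n : G) ∈ H) {t : G} (ht : t ∈ D.P.B ⊓ D.P.N) : t * n * t⁻¹ ∈ H := by
  obtain ⟨u, hu, h1, -⟩ := D.exists_U_not_fix s.2
  have hT : ∀ c ∈ D.P.B ⊓ D.P.N, ∀ m ∈ D.P.N, m⁻¹ * c * m ∈ D.P.B ⊓ D.P.N := fun c hc m hm =>
    ⟨by simpa using D.P.conj_mem m⁻¹ (inv_mem hm) c hc, D.P.N.mul_mem (D.P.N.mul_mem (D.P.N.inv_mem hm) hc.2) hm⟩
  -- the subgroup generated by `U` and its conjugate by `n`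
  let gens : Set G := (D.U : Set G) ∪ {y | ∃ v ∈ D.U, y = (n : G)⁻¹ * v * n}
  let E : Subgroup G := Subgroup.closure gens
  have hEH : E ≤ H := by
    rw [Subgroup.closure_le]
    rintro y (hy | ⟨v, hv, rfl⟩)
    · exact hUH hy
    · exact mul_mem (mul_mem (inv_mem hnH) (hUH hv)) hnH
  have hUE : D.U ≤ E := fun v hv => Subgroup.subset_closure (Or.inl hv)
  have hEn : ∀ c ∈ D.P.B ⊓ D.P.N, ∀ x ∈ E, c * x * c⁻¹ ∈ E := by
    intro c hc x hx
    refine (show E ≤ E.comap (MulAut.conj c).toMonoidHom from ?_) hx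
    rw [Subgroup.closure_le]
    rintro y (hy | ⟨v, hv, rfl⟩)
    · exact hUE (D.norm c hc.1 y hy)
    · refine Subgroup.subset_closure (Or.inr
        ⟨((n : G)⁻¹⁻¹ * c * (n : G)⁻¹) * v * ((n : G)⁻¹⁻¹ * c * (n : G)⁻¹)⁻¹,
          D.norm _ (hT c hc (n : G)⁻¹ (inv_mem n.2)).1 v hv, ?_⟩)
      simp only [MulEquiv.coe_toMonoidHom, MulAut.conj_apply]
      group
  have htn : (n : G)⁻¹ * (s : G) ∈ D.P.B := (cls_eq_iff D.P (n := n) (n' := ⟨s, D.P.subset s.2⟩)).1 hn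
  set c := (n : G)⁻¹ * (s : G) with hcdef
  have hcT : c ∈ D.P.B ⊓ D.P.N := ⟨htn, D.P.N.mul_mem (D.P.N.inv_mem n.2) (D.P.subset s.2)⟩
  -- an element of `n⁻¹ U n` in the cell of `s`
  have hcell : ∃ v ∈ D.U, (n : G)⁻¹ * v * n ∈ cell D.P (si D.P s) := by
    refine ⟨u, hu, ?_⟩
    have h2 : (s : G)⁻¹ * u * (s : G) ∈ D.P.parabolic {(s : G)} :=
      mul_mem (mul_mem (inv_mem (D.self_mem_panel _)) (D.B_le_panel _ (D.U_le hu))) (D.self_mem_panel _)
    have hcu : (n : G)⁻¹ * u * n = c * ((s : G)⁻¹ * u * (s : G)) * c⁻¹ := by rw [hcdef]; group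
    rcases D.mem_panel s.2 h2 with h | ⟨b, hb, b', hb', e⟩
    · exact absurd h h1
    · rw [hcu, e]
      exact mul_mem_cell_right D.P (inv_mem hcT.1) (mul_mem_cell_left D.P hcT.1
        (mul_mem_cell_right D.P hb' (mul_mem_cell_left D.P hb (si_mem_cell D.P s))))
  obtain ⟨v, hv, hvc⟩ := hcell
  obtain ⟨m, hm, hmE⟩ := exists_rep D hUE (Subgroup.subset_closure (Or.inr ⟨v, hv, rfl⟩)) hvc
  have hnm : (m : G)⁻¹ * n ∈ D.P.B := (cls_eq_iff D.P).1 (hm.trans hn.symm)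
  have hd : (m : G)⁻¹ * n ∈ D.P.B ⊓ D.P.N := ⟨hnm, D.P.N.mul_mem (D.P.N.inv_mem m.2) n.2⟩
  have hcomm := hab _ ht _ hd
  have hfin : t * (n : G) * t⁻¹ = (t * m * t⁻¹) * (m : G)⁻¹ * n := by
    calc t * (n : G) * t⁻¹ = t * m * ((m : G)⁻¹ * n) * t⁻¹ := by group
      _ = t * m * (t⁻¹ * (t * ((m : G)⁻¹ * n))) * t⁻¹ := by group
      _ = t * m * (t⁻¹ * ((m : G)⁻¹ * n * t)) * t⁻¹ := by rw [hcomm]
      _ = (t * m * t⁻¹) * (m : G)⁻¹ * n := by group
  rw [hfin]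
  exact mul_mem (mul_mem (hEH (hEn t ht m hmE)) (inv_mem (hEH hmE))) hnH

theorem conj_mem_overgroup (hab : ∀ s ∈ D.P.B ⊓ D.P.N, ∀ t ∈ D.P.B ⊓ D.P.N, s * t = t * s)
    {H : Subgroup G} (hUH : D.U ≤ H) {b x : G} (hb : b ∈ D.P.B) (hx : x ∈ H) : b * x * b⁻¹ ∈ H := by
  obtain ⟨u, hu, s, hs, rfl⟩ := D.cover b hb
  suffices h : s * x * s⁻¹ ∈ H by
    have := mul_mem (mul_mem (hUH hu) h) (inv_mem (hUH hu))
    simpa [mul_assoc] using this
  clear hu hb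
  -- monomial elements of `H`
  have hmon : ∀ n : D.P.N, (n : G) ∈ H → ∀ t ∈ D.P.B ⊓ D.P.N, t * (n : G) * t⁻¹ ∈ H := by
    intro n hn
    obtain ⟨L, hL, hLm⟩ := exists_word_meets D hUH n hn
    suffices key : ∀ (L : List D.P.S), (∀ s ∈ L, s ∈ meets D H) → ∀ n : D.P.N, cls D.P n = word D.P L →
        (n : G) ∈ H → ∀ t ∈ D.P.B ⊓ D.P.N, t * (n : G) * t⁻¹ ∈ H from
      fun t ht => key L hLm n hL.symm hn t ht
    clear hLm hL hn n L
    intro L
    induction L with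
    | nil =>
      intro _ n hn hnH t ht
      have h1 : (1 : G)⁻¹ * n ∈ D.P.B := by
        have := (cls_eq_iff D.P (n := (1 : D.P.N)) (n' := n)).1 (by rw [hn]; rfl)
        simpa using this
      rw [hab t ht n ⟨by simpa using h1, n.2⟩]
      simpa using hnH
    | cons r L ih =>
      intro hLm n hn hnH t ht
      obtain ⟨m, hm, hmH⟩ := hLm r (by simp)
      have h2 := ih (fun a ha => hLm a (by simp [ha])) (m⁻¹ * n)
        (by show (cls D.P m)⁻¹ * cls D.P n = _; rw [hn, word_cons, hm, si_inv, si_mul_cancel])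
        (by push_cast; exact mul_mem (inv_mem hmH) hnH) t ht
      have := mul_mem (mon_conj_mem D hab hUH hm hmH ht) h2
      simpa [mul_assoc] using this
  obtain ⟨w, hw⟩ := bruhat D.P x
  obtain ⟨n, rfl, hnH⟩ := exists_rep D hUH hx hw
  obtain ⟨b₁, hb₁, b₂, hb₂, rfl⟩ := (mem_cell_cls D.P).1 hw
  obtain ⟨u₁, hu₁, t₁, ht₁, rfl⟩ := D.cover b₁ hb₁
  obtain ⟨u₂, hu₂, t₂, ht₂, e₂⟩ := D.cover b₂⁻¹ (inv_mem hb₂)
  obtain rfl : b₂ = t₂⁻¹ * u₂⁻¹ := by rw [← inv_inv b₂, e₂, mul_inv_rev]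
  have hU : ∀ v ∈ D.U, s * v * s⁻¹ ∈ H := fun v hv => hUH (D.norm s hs.1 v hv)
  have hmid : t₁ * t₂⁻¹ ∈ H := by
    have h1 : t₁ * n * t₂⁻¹ ∈ H := by
      have := mul_mem (mul_mem (inv_mem (hUH hu₁)) hx) (hUH hu₂)
      simpa [mul_assoc] using this
    have := mul_mem (inv_mem (hmon n hnH t₁ ht₁)) h1
    simpa [mul_assoc] using this
  have e : s * (u₁ * t₁ * n * (t₂⁻¹ * u₂⁻¹)) * s⁻¹ = (s * u₁ * s⁻¹) * ((s * t₁) * n * (s * t₁)⁻¹)
      * (s * (t₁ * t₂⁻¹) * s⁻¹) * (s * u₂ * s⁻¹)⁻¹ := by group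
  rw [e, hab s hs _ (mul_mem ht₁ (inv_mem ht₂)), mul_assoc (t₁ * t₂⁻¹), mul_inv_cancel, mul_one]
  exact mul_mem (mul_mem (mul_mem (hU _ hu₁) (hmon n hnH _ (mul_mem hs ht₁))) hmid) (inv_mem (hU _ hu₂))

theorem pronormal_overgroup [Finite G] [Fact p.Prime]
    (hab : ∀ s ∈ D.P.B ⊓ D.P.N, ∀ t ∈ D.P.B ⊓ D.P.N, s * t = t * s) {H : Subgroup G}
    (hidx : ¬ p ∣ H.index) : Cfsg.IsPronormal H := by
  obtain ⟨g₀, hg₀⟩ := exists_conj_le D hidx
  intro g
  let S₀ : Sylow p G := g₀ • (D.pgroup.toSylow D.not_dvd)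
  have hS : (S₀ : Subgroup G) ≤ H := by
    intro y hy
    rw [Sylow.coe_subgroup_smul] at hy
    obtain ⟨u, hu, rfl⟩ := hy
    exact hg₀ u hu
  set J := H ⊔ H.map (MulAut.conj g).toMonoidHom with hJ
  have h1 : (S₀ : Subgroup G) ≤ J := hS.trans le_sup_left
  have h2 : ((g • S₀ : Sylow p G) : Subgroup G) ≤ J := by
    rw [Sylow.coe_subgroup_smul]
    exact le_trans (Subgroup.map_mono hS) le_sup_right
  obtain ⟨j, hj⟩ := MulAction.exists_smul_eq ↥J ((g • S₀).subtype h2) (S₀.subtype h1)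
  rw [Sylow.smul_subtype] at hj
  have hj2 := Sylow.subtype_injective hj
  rw [Subgroup.smul_def] at hj2
  have hb : g₀⁻¹ * ((j : G) * g) * g₀ ∈ D.P.B := by
    rw [← D.normalizer_U]
    have h : (g₀⁻¹ * ((j : G) * g) * g₀) • (D.pgroup.toSylow D.not_dvd) = D.pgroup.toSylow D.not_dvd := by
      rw [mul_smul, mul_smul, mul_smul]
      rw [show g₀ • (D.pgroup.toSylow D.not_dvd) = S₀ from rfl, hj2, inv_smul_smul]
    exact Sylow.smul_eq_iff_mem_normalizer.1 h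
  let H' := H.comap (MulAut.conj g₀).toMonoidHom
  have hfix : ∀ b ∈ D.P.B, ∀ x ∈ H', b * x * b⁻¹ ∈ H' := fun b hb x hx =>
    conj_mem_overgroup D hab (fun u hu => hg₀ u hu) hb hx
  have hjg : H.map (MulAut.conj ((j : G) * g)).toMonoidHom = H := by
    set k := (j : G) * g
    ext y
    simp only [Subgroup.mem_map, MulEquiv.coe_toMonoidHom, MulAut.conj_apply]
    constructor
    · rintro ⟨x, hx, rfl⟩
      have := hfix _ hb (g₀⁻¹ * x * g₀) (by simpa [H', mul_assoc] using hx)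
      simpa [H', mul_assoc] using this
    · intro hy
      refine ⟨k⁻¹ * y * k, ?_, by group⟩
      have := hfix _ (inv_mem hb) (g₀⁻¹ * y * g₀) (by simpa [H', mul_assoc] using hy)
      simpa [H', mul_assoc] using this
  refine ⟨(j : G)⁻¹, J.inv_mem j.2, ?_⟩
  conv_rhs => rw [← hjg, Subgroup.map_map]
  congr 1
  ext x
  simp [mul_assoc]

open BN.SLSplit in
theorem pronormal_psl {F : Type*} [Field F] [Fintype F] {p : ℕ} [Fact p.Prime] [CharP F p] {n : ℕ}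
    (hn : 2 ≤ n) {H : Subgroup (Matrix.ProjectiveSpecialLinearGroup (Fin n) F)} (hidx : ¬ p ∣ H.index) :
    Cfsg.IsPronormal H := by
  classical
  let f := QuotientGroup.mk' (Subgroup.center (Matrix.SpecialLinearGroup (Fin n) F))
  have hk : f.ker ≤ (SLSplit.split F n).T := by rw [QuotientGroup.ker_mk']; exact SLSplit.center_le (by omega)
  let S := (SLSplit.split F n).map f (QuotientGroup.mk'_surjective _) hk
  have hU : IsPGroup p S.U := SLBlocks.isPGroup_upU.map f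
  have hT : ¬ p ∣ Nat.card S.T := fun h => SLSplit.not_dvd_tor (h.trans (Subgroup.card_map_dvd _ f))
  refine pronormal_overgroup (PData.ofSplit S hU hT ((SLSplit.split_nonempty hn).image f)) ?_ hidx
  intro a ha b hb
  have hTT : ∀ c ∈ (PData.ofSplit S hU hT ((SLSplit.split_nonempty hn).image f)).P.B ⊓
      (PData.ofSplit S hU hT ((SLSplit.split_nonempty hn).image f)).P.N, c ∈ S.T := fun c hc => by
    rw [← S.inf_mon]
    exact ⟨hc.1, S.Nsub_le hc.2⟩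
  obtain ⟨a', ha', rfl⟩ := hTT a ha
  obtain ⟨b', hb', rfl⟩ := hTT b hb
  rw [← map_mul, ← map_mul]
  congr 1
  have h1 := SLSplit.isMono_tor ha'
  have h2 := SLSplit.isMono_tor hb'
  refine SLSplit.ext_ent fun i j => ?_
  rw [SLSplit.ent_mul, SLSplit.ent_mul]
  refine Finset.sum_congr rfl fun l _ => ?_
  by_cases hil : i = l <;> by_cases hlj : l = j
  · subst hil hlj; exact mul_comm _ _
  · rw [show SLSplit.ent b' l j = 0 from h2 l j (fun h => hlj h.symm),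
      show SLSplit.ent a' l j = 0 from h1 l j (fun h => hlj h.symm), mul_zero, mul_zero]
  · rw [show SLSplit.ent a' i l = 0 from h1 i l (fun h => hil h.symm),
      show SLSplit.ent b' i l = 0 from h2 i l (fun h => hil h.symm), zero_mul, zero_mul]
  · rw [show SLSplit.ent a' i l = 0 from h1 i l (fun h => hil h.symm),
      show SLSplit.ent b' i l = 0 from h2 i l (fun h => hil h.symm), zero_mul, zero_mul]

end Cfsg.Agent.Lib.Pronormal2
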