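import Cfsg.Agent.Lib.Pronormal2.BaseTwo
import Cfsg.Agent.Lib.Coprime.Action
import Cfsg.Prelude.Def_HallClasses

/-!
Subgroups of odd index of `PSL₂(q)`, `q` odd, are pronormal.
-/

set_option autoImplicit false
set_option linter.unusedSectionVars false

namespace Cfsg.Agent.Lib.Pronormal2

open Matrix Cfsg.Agent.Lib.Classical
open scoped MatrixGroups

universe u

/-- The preimage of a Sylow subgroup is one if the kernel is a `p`-group. -/
theorem exists_sylow_comap {G H : Type*} [Group G] [Group H] [Finite G] {p : ℕ} [Fact p.Prime] (f : G →* H)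
    (hf : Function.Surjective f) (hk : IsPGroup p f.ker) (S : Sylow p H) :
    ∃ P : Sylow p G, (P : Subgroup G) = (S : Subgroup H).comap f := by
  refine ⟨⟨_, S.2.comap_of_ker_isPGroup f hk, fun {R} hR hle => ?_⟩, rfl⟩
  refine le_antisymm ?_ hle
  rw [← Subgroup.map_le_iff_le_comap]
  refine (S.3 (hR.map f) ?_).le
  intro y hy
  obtain ⟨g, rfl⟩ := hf y
  exact ⟨g, hle hy, rfl⟩

/-- Pronormality of a subgroup containing a Sylow `2`-subgroup is decided in the normalizer of it. -/
theorem pronormal_of_odd_normalizer {G : Type*} [Group G] [Finite G] (S : Sylow 2 G) (H : Subgroup G)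
    (hSH : (S : Subgroup G) ≤ H)
    (h : ∀ x : G, Odd (orderOf x) → (∀ s ∈ (S : Subgroup G), x * s * x⁻¹ ∈ (S : Subgroup G)) →
      ∃ y ∈ H ⊔ H.map (MulAut.conj x).toMonoidHom,
        H.map (MulAut.conj x).toMonoidHom = H.map (MulAut.conj y).toMonoidHom) :
    Cfsg.IsPronormal H := by
  haveI : Fact (Nat.Prime 2) := ⟨Nat.prime_two⟩
  intro g
  set J := H ⊔ H.map (MulAut.conj g).toMonoidHom with hJ
  have h1 : (S : Subgroup G) ≤ J := hSH.trans le_sup_left
  have h2 : ((g • S : Sylow 2 G) : Subgroup G) ≤ J := by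
    rw [Sylow.coe_subgroup_smul]
    exact le_trans (Subgroup.map_mono hSH) le_sup_right
  obtain ⟨j, hj⟩ := MulAction.exists_smul_eq ↥J ((g • S).subtype h2) (S.subtype h1)
  rw [Sylow.smul_subtype] at hj
  have hj2 := Sylow.subtype_injective hj
  rw [Subgroup.smul_def, ← mul_smul] at hj2
  set k := (j : G) * g with hk
  have hkN := Sylow.smul_eq_iff_mem_normalizer.1 hj2
  obtain ⟨u, v, huv, hodd, m, hm⟩ := exists_parts k
  have hnz : ∀ i : ℤ, ∀ s ∈ (S : Subgroup G), k ^ i * s * (k ^ i)⁻¹ ∈ (S : Subgroup G) := fun i s hs =>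
    (Subgroup.mem_normalizer_iff.1 (Subgroup.zpow_mem _ hkN i) s).1 hs
  have hv : k ^ v ∈ H := hSH (mem_sylow_of_normalizes S (hnz v) hm)
  obtain ⟨y, hy, hye⟩ := h (k ^ u) hodd (hnz u)
  have hfix : H.map (MulAut.conj k).toMonoidHom = H.map (MulAut.conj (k ^ u)).toMonoidHom := by
    have hHv : H.map (MulAut.conj (k ^ v)).toMonoidHom = H := by
      ext z
      constructor
      · rintro ⟨z, hz, rfl⟩; exact H.mul_mem (H.mul_mem hv hz) (H.inv_mem hv)
      · intro hz
        exact ⟨(k ^ v)⁻¹ * z * k ^ v, H.mul_mem (H.mul_mem (H.inv_mem hv) hz) hv, by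
          simp only [MulEquiv.coe_toMonoidHom, MulAut.conj_apply]; group⟩
    conv_rhs => rw [← hHv, Subgroup.map_map]
    congr 1
    refine MonoidHom.ext fun z => ?_
    simp only [MonoidHom.comp_apply, MulEquiv.coe_toMonoidHom, ← MulAut.mul_apply, ← map_mul, ← huv]
  have hmapJ : H.map (MulAut.conj k).toMonoidHom ≤ J := by
    rintro _ ⟨z, hz, rfl⟩
    have hz' : g * z * g⁻¹ ∈ J := Subgroup.mem_sup_right ⟨z, hz, rfl⟩
    have := J.mul_mem (J.mul_mem j.2 hz') (J.inv_mem j.2)
    simpa [hk, mul_assoc] using this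
  have hyJ : y ∈ J := (sup_le (le_sup_left : H ≤ J) (hfix ▸ hmapJ) : _ ≤ J) hy
  refine ⟨(j : G)⁻¹ * y, J.mul_mem (J.inv_mem j.2) hyJ, ?_⟩
  have e : H.map (MulAut.conj ((j : G)⁻¹ * y)).toMonoidHom =
      (H.map (MulAut.conj y).toMonoidHom).map (MulAut.conj (j : G)⁻¹).toMonoidHom := by
    rw [Subgroup.map_map]; congr 1; ext z; simp [mul_assoc]
  rw [e, ← hye, ← hfix, Subgroup.map_map]
  congr 1; ext z; simp [hk, mul_assoc]

/-- The elements of odd order of a subgroup are permuted by what normalizes it. -/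
theorem mem_normalizer_of_odd {G : Type*} [Group G] [Finite G] (O M : Subgroup G) (hMO : M ≤ O)
    (hM : Odd (Nat.card M)) (hmem : ∀ g ∈ O, Odd (orderOf g) → g ∈ M) {q : G}
    (hq : ∀ o ∈ O, q * o * q⁻¹ ∈ O) : q ∈ Subgroup.normalizer (M : Set G) := by
  refine Subgroup.mem_normalizer_iff_map_conj_eq.2 (Subgroup.eq_of_le_of_card_ge ?_
    (by rw [Subgroup.card_map_of_injective (MulAut.conj q).injective]))
  rintro _ ⟨m, hm, rfl⟩
  refine hmem _ (hq m (hMO hm)) ?_
  show Odd (orderOf (MulAut.conj q m))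
  rw [MulEquiv.orderOf_eq]
  exact hM.of_dvd_nat (Subgroup.orderOf_dvd_natCard M hm)

/-- A normal subgroup of `K` is normalized by `K` in the ambient group. -/
theorem conj_mem_map_subtype {G : Type*} [Group G] (K : Subgroup G) (N : Subgroup K) (hN : N.Normal)
    {k o : G} (hk : k ∈ K) (ho : o ∈ N.map K.subtype) : k * o * k⁻¹ ∈ N.map K.subtype := by
  obtain ⟨o, ho, rfl⟩ := ho
  exact ⟨⟨k, hk⟩ * o * ⟨k, hk⟩⁻¹, hN.conj_mem o ho _, by simp⟩

variable {F : Type u} [Field F] [Fintype F]

theorem central_sl {x a b : SL(2, F)} (hab : a * b ≠ b * a) (ha : a * x = x * a) (hb : b * x = x * b) :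
    x * x = 1 := by
  have hc : SpecialLinearGroup.toGL x ∈ Subgroup.center (GL (Fin 2) F) :=
    central_of_commute (a := SpecialLinearGroup.toGL a) (b := SpecialLinearGroup.toGL b)
      (fun h => hab (toGL_injective (by rw [map_mul, map_mul]; exact h)))
      (by rw [← map_mul, ha, map_mul]) (by rw [← map_mul, hb, map_mul])
  exact toGL_injective (by rw [map_mul, map_one]; exact sq_eq_one_of_center_slK hc (toGL_mem_slK x))

theorem eq_one_of_sq {G : Type*} [Group G] {x : G} (hx : Odd (orderOf x)) (h : x * x = 1) : x = 1 := by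
  rcases (Nat.dvd_prime Nat.prime_two).1 (orderOf_dvd_of_pow_eq_one (show x ^ 2 = 1 by rw [pow_two]; exact h)) with h' | h'
  · exact orderOf_eq_one_iff.1 h'
  · rw [h'] at hx; exact absurd hx (by decide)

/-- Two commuting conjugates of an element with distinct eigenvalues are equal or inverse. -/
theorem conj_eq_or_inv (h2 : (2 : F) ≠ 0) {a g : SL(2, F)} (ht : (a.1 0 0 + a.1 1 1) ^ 2 ≠ 4)
    (hc : a * (g * a * g⁻¹) = (g * a * g⁻¹) * a) : g * a * g⁻¹ = a ∨ g * a * g⁻¹ = a⁻¹ := by
  set b := g * a * g⁻¹ with hb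
  have htr : b.1 0 0 + b.1 1 1 = a.1 0 0 + a.1 1 1 := by
    have e : b.1.trace = a.1.trace := by
      rw [hb, Matrix.SpecialLinearGroup.coe_mul, Matrix.SpecialLinearGroup.coe_mul, Matrix.trace_mul_comm,
        ← Matrix.mul_assoc, ← Matrix.SpecialLinearGroup.coe_mul, inv_mul_cancel,
        Matrix.SpecialLinearGroup.coe_one, Matrix.one_mul]
    simpa [Matrix.trace_fin_two] using e
  have da : a.1 0 0 * a.1 1 1 - a.1 0 1 * a.1 1 0 = 1 := by rw [← det_fin_two]; exact a.2
  have db : b.1 0 0 * b.1 1 1 - b.1 0 1 * b.1 1 0 = 1 := by rw [← det_fin_two]; exact b.2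
  have hh := congrArg (fun z : SL(2, F) => z.1) hc
  simp only [Matrix.SpecialLinearGroup.coe_mul] at hh
  have c00 := congrFun (congrFun hh 0) 0
  have c01 := congrFun (congrFun hh 0) 1
  have c10 := congrFun (congrFun hh 1) 0
  simp [Matrix.mul_apply, Fin.sum_univ_two] at c00 c01 c10
  have hd : (a.1 0 0 + a.1 1 1) ^ 2 - 4 ≠ 0 := sub_ne_zero.2 ht
  have s01 : b.1 0 1 = a.1 0 1 ∨ b.1 0 1 = -a.1 0 1 :=
    eq_or_eq_neg_of_sq_eq_sq _ _ (mul_right_cancel₀ hd (by grobner))
  have s10 : b.1 1 0 = a.1 1 0 ∨ b.1 1 0 = -a.1 1 0 :=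
    eq_or_eq_neg_of_sq_eq_sq _ _ (mul_right_cancel₀ hd (by grobner))
  have key : (b.1 0 1 = a.1 0 1 ∧ b.1 1 0 = a.1 1 0 ∧ b.1 0 0 - b.1 1 1 = a.1 0 0 - a.1 1 1) ∨
      (b.1 0 1 = -a.1 0 1 ∧ b.1 1 0 = -a.1 1 0 ∧ b.1 0 0 - b.1 1 1 = -(a.1 0 0 - a.1 1 1)) := by
    by_cases h1 : a.1 0 1 = 0
    · by_cases h2 : a.1 1 0 = 0
      · have hb1 : b.1 0 1 = 0 := by rcases s01 with h | h <;> simpa [h1] using h
        have hb2 : b.1 1 0 = 0 := by rcases s10 with h | h <;> simpa [h2] using h
        have hsq : (b.1 0 0 - b.1 1 1) ^ 2 = (a.1 0 0 - a.1 1 1) ^ 2 := by grobner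
        rcases eq_or_eq_neg_of_sq_eq_sq _ _ hsq with h | h
        · exact Or.inl ⟨by rw [hb1, h1], by rw [hb2, h2], h⟩
        · exact Or.inr ⟨by rw [hb1, h1, neg_zero], by rw [hb2, h2, neg_zero], h⟩
      · rcases s10 with h | h
        · refine Or.inl ⟨?_, h, ?_⟩ <;> refine mul_left_cancel₀ h2 ?_ <;> grobner
        · refine Or.inr ⟨?_, h, ?_⟩ <;> refine mul_left_cancel₀ h2 ?_ <;> grobner
    · rcases s01 with h | h
      · refine Or.inl ⟨h, ?_, ?_⟩ <;> refine mul_left_cancel₀ h1 ?_ <;> grobner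
      · refine Or.inr ⟨h, ?_, ?_⟩ <;> refine mul_left_cancel₀ h1 ?_ <;> grobner
  rcases key with ⟨h1, h2', h3⟩ | ⟨h1, h2', h3⟩
  · left
    refine Subtype.ext ?_
    ext i j
    fin_cases i <;> fin_cases j <;> simp [h1, h2'] <;> refine mul_left_cancel₀ h2 ?_ <;> grobner
  · right
    refine Subtype.ext ?_
    rw [Matrix.SpecialLinearGroup.coe_inv, Matrix.adjugate_fin_two]
    ext i j
    fin_cases i <;> fin_cases j <;> simp [h1, h2'] <;> refine mul_left_cancel₀ h2 ?_ <;> grobner

/-- A subgroup of odd order prime to the characteristic is commutative. -/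
theorem comm_of_odd (hF : Odd (Fintype.card F)) (M : Subgroup (SL(2, F))) (hM : Odd (Nat.card M))
    (htr : ∀ a ∈ M, a ≠ 1 → (a.1 0 0 + a.1 1 1) ^ 2 ≠ 4) : ∀ a ∈ M, ∀ b ∈ M, a * b = b * a := by
  induction hn : Nat.card M using Nat.strong_induction_on generalizing M with
  | _ n ih =>
    have hodd : ∀ g ∈ M, Odd (orderOf g) := fun g hg => hM.of_dvd_nat (Subgroup.orderOf_dvd_natCard M hg)
    -- conjugating a noncentral element
    have hfix : ∀ a ∈ M, a ≠ 1 → ∀ g ∈ M, a * (g * a * g⁻¹) = (g * a * g⁻¹) * a → g * a = a * g := by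
      intro a ha ha1 g hg hc
      obtain ⟨k, hk⟩ := hodd g hg
      have h2 : g * g * a = a * (g * g) := by
        rcases conj_eq_or_inv (two_ne_zero_of_odd_card hF) (htr a ha ha1) hc with h | h
        · rw [mul_inv_eq_iff_eq_mul] at h
          rw [mul_assoc, h, ← mul_assoc, h, mul_assoc]
        · have h' : g * a⁻¹ * g⁻¹ = a := by rw [← conj_inv, h, inv_inv]
          rw [mul_inv_eq_iff_eq_mul] at h h'
          rw [mul_assoc, h, ← mul_assoc, h', mul_assoc]
      have h3 : Commute ((g * g) ^ (k + 1)) a := (Commute.pow_left h2 _)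
      rw [← pow_two, ← pow_mul, show 2 * (k + 1) = orderOf g + 1 by omega, pow_succ, pow_orderOf_eq_one,
        one_mul] at h3
      exact h3.eq
    have hns : ∀ a ∈ M, a ≠ 1 → ∀ g h : SL(2, F), g * a = a * g → h * a = a * h → g * h = h * g := by
      intro a ha ha1 g h hg hh
      by_contra hne
      exact ha1 (eq_one_of_sq (hodd a ha) (central_sl hne hg hh))
    by_cases h1 : n = 1
    · intro a ha b hb
      have : M = ⊥ := Subgroup.eq_bot_of_card_eq M (hn.trans h1)
      rw [this, Subgroup.mem_bot] at ha hb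
      rw [ha, hb]
    obtain ⟨r, hr, hrd⟩ := Nat.exists_prime_and_dvd (hn.symm ▸ h1 : Nat.card M ≠ 1)
    haveI : Fact r.Prime := ⟨hr⟩
    obtain ⟨R⟩ : Nonempty (Sylow r M) := inferInstance
    haveI : Nontrivial (R : Subgroup M) := by
      rw [← Finite.one_lt_card_iff_nontrivial]
      exact lt_of_lt_of_le hr.one_lt (Nat.le_of_dvd Nat.card_pos (R.dvd_card_of_dvd_card hrd))
    haveI : Nontrivial (Subgroup.center (R : Subgroup M)) := R.isPGroup'.center_nontrivial
    obtain ⟨z, hz⟩ := exists_ne (1 : Subgroup.center (R : Subgroup M))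
    set a : M := ((z : (R : Subgroup M)) : M) with hadef
    have ha1 : (a : SL(2, F)) ≠ 1 := fun h => hz (Subtype.ext (Subtype.ext (Subtype.ext h)))
    have haR : ∀ y ∈ (R : Subgroup M), y * a = a * y := fun y hy =>
      congrArg Subtype.val (Subgroup.mem_center_iff.1 z.2 ⟨y, hy⟩)
    have hN : Subgroup.normalizer ((R : Subgroup M) : Set M) ≤ Subgroup.centralizer ((R : Subgroup M) : Set M) := by
      intro g hg
      have hgR : g * a * g⁻¹ ∈ (R : Subgroup M) := (Subgroup.mem_normalizer_iff.1 hg a).1 (z : (R : Subgroup M)).2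
      have hga := hfix a a.2 ha1 g g.2 (congrArg Subtype.val (haR _ hgR)).symm
      refine Subgroup.mem_centralizer_iff.2 fun y hy => Subtype.ext ?_
      exact hns a a.2 ha1 y g (congrArg Subtype.val (haR y hy)) hga
    set f := MonoidHom.transferSylow R hN with hf
    have hcomp := MonoidHom.ker_transferSylow_isComplement' R hN
    set N := f.ker.map M.subtype with hNdef
    by_cases hN1 : f.ker = ⊥
    · have hR : (R : Subgroup M) = ⊤ := by
        rw [hN1] at hcomp
        exact Subgroup.isComplement'_bot_left.1 hcomp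
      intro x hx y hy
      have hall : ∀ w : M, w * a = a * w := fun w => haR w (by rw [hR]; trivial)
      exact hns a a.2 ha1 x y (congrArg Subtype.val (hall ⟨x, hx⟩)) (congrArg Subtype.val (hall ⟨y, hy⟩))
    have hlt : Nat.card N < n := by
      rw [hNdef, Subgroup.card_map_of_injective M.subtype_injective, ← hn]
      have h2 := hcomp.card_mul_card
      have h3 : 1 < Nat.card (R : Subgroup M) := Finite.one_lt_card
      have h4 : 0 < Nat.card f.ker := Nat.card_pos
      rw [← h2]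
      exact lt_mul_of_one_lt_right h4 h3
    have hNM : N ≤ M := Subgroup.map_subtype_le _
    have hcN := ih _ hlt N (hM.of_dvd_nat (Subgroup.card_dvd_of_le hNM)) (fun b hb => htr b (hNM hb)) rfl
    obtain ⟨⟨b, hb⟩, hb1⟩ : ∃ b : f.ker, b ≠ 1 := by
      haveI : Nontrivial f.ker := f.ker.nontrivial_iff_ne_bot.2 hN1
      exact exists_ne 1
    have hbn : (b : SL(2, F)) ≠ 1 := fun h => hb1 (Subtype.ext (Subtype.ext h))
    intro x hx y hy
    have hcomm : ∀ w ∈ M, w * (b : SL(2, F)) = b * w := by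
      intro w hw
      have hb' : (b : SL(2, F)) ∈ N := Subgroup.mem_map_of_mem M.subtype hb
      have hc' : w * (b : SL(2, F)) * w⁻¹ ∈ N :=
        Subgroup.mem_map_of_mem M.subtype ((MonoidHom.normal_ker f).conj_mem b hb ⟨w, hw⟩)
      exact hfix b b.2 hbn w hw (hcN _ hb' _ hc')
    exact hns b b.2 hbn x y (hcomm x hx) (hcomm y hy)

/-- A subgroup of odd order normalized by a Sylow `2`-subgroup has order prime to the characteristic. -/
theorem trace_ne (hF : Odd (Fintype.card F)) (P : Sylow 2 (SL(2, F))) (M : Subgroup (SL(2, F)))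
    (hM : Odd (Nat.card M)) (hPM : (P : Subgroup (SL(2, F))) ≤ Subgroup.normalizer (M : Set (SL(2, F)))) :
    ∀ a ∈ M, a ≠ 1 → (a.1 0 0 + a.1 1 1) ^ 2 ≠ 4 := by
  haveI : Fact (Nat.Prime 2) := ⟨Nat.prime_two⟩
  obtain ⟨p, hp⟩ := CharP.exists F
  haveI : Fact p.Prime := ⟨CharP.char_is_prime F p⟩
  have h2 : (2 : F) ≠ 0 := two_ne_zero_of_odd_card hF
  have hpnd : ¬ p ∣ Nat.card M := by
    intro hd
    obtain ⟨k, hk⟩ := P.isPGroup'.exists_card_eq
    have hcop : (Nat.card (P : Subgroup (SL(2, F)))).Coprime (Nat.card M) := by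
      rw [hk]; exact Nat.Coprime.pow_left k (Nat.coprime_two_left.2 hM)
    haveI : Group.IsNilpotent (P : Subgroup (SL(2, F))) := P.isPGroup'.isNilpotent
    obtain ⟨R, hR⟩ := Cfsg.Agent.Lib.Coprime.exists_invariant_sylow hPM hcop (Or.inl inferInstance) p
    haveI : Nontrivial (R : Subgroup M) := by
      rw [← Finite.one_lt_card_iff_nontrivial]
      exact lt_of_lt_of_le (Fact.out : p.Prime).one_lt (Nat.le_of_dvd Nat.card_pos (R.dvd_card_of_dvd_card hd))
    haveI : Nontrivial (Subgroup.center (R : Subgroup M)) := R.isPGroup'.center_nontrivial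
    obtain ⟨z, hz⟩ := exists_ne (1 : Subgroup.center (R : Subgroup M))
    set a : SL(2, F) := (((z : (R : Subgroup M)) : M) : SL(2, F)) with hadef
    have ha1 : a ≠ 1 := fun h => hz (Subtype.ext (Subtype.ext (Subtype.ext h)))
    obtain ⟨j, hj⟩ := R.isPGroup' (z : (R : Subgroup M))
    have haj : a ^ p ^ j = 1 := by
      simpa [hadef] using congrArg (fun w : (R : Subgroup M) => ((w : M) : SL(2, F))) hj
    obtain ⟨v, hv, hav⟩ : ∃ v : Fin 2 → F, v ≠ 0 ∧ a.1 *ᵥ v = v := by
      have h0 : (a.1 - 1).det = 0 := by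
        have h : (a.1 - 1) ^ p ^ j = 0 := by
          rw [sub_pow_char_pow_of_commute (p := p) (n := j) (Commute.one_right a.1), one_pow,
            ← Matrix.SpecialLinearGroup.coe_pow, haj, Matrix.SpecialLinearGroup.coe_one, sub_self]
        exact eq_zero_of_pow_eq_zero (n := p ^ j) (by
          rw [← Matrix.det_pow, h, Matrix.det_zero])
      obtain ⟨v, hv, hv'⟩ := Matrix.exists_mulVec_eq_zero_iff.2 h0
      exact ⟨v, hv, sub_eq_zero.1 (by rw [← hv', Matrix.sub_mulVec, Matrix.one_mulVec])⟩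
    -- the fixed line
    have hline : ∀ w : Fin 2 → F, a.1 *ᵥ w = w → ∃ r : F, w = r • v := by
      intro w hw
      by_contra hne
      push Not at hne
      have hli : LinearIndependent F ![v, w] := by
        rw [linearIndependent_fin2]
        refine ⟨fun h => hne 0 (by simpa using h), fun r h => ?_⟩
        rcases eq_or_ne r 0 with rfl | hr0
        · exact hv (by simpa using h.symm)
        · exact hne r⁻¹ (by
            have h' : r • w = v := h
            rw [← h', smul_smul, inv_mul_cancel₀ hr0, one_smul])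
      have hspan := hli.span_eq_top_of_card_eq_finrank' (by simp)
      refine ha1 (Subtype.ext ?_)
      refine Matrix.ext_of_mulVec_single fun i => ?_
      rw [Matrix.SpecialLinearGroup.coe_one, Matrix.one_mulVec]
      suffices hall : ∀ y ∈ Submodule.span F (Set.range ![v, w]), a.1 *ᵥ y = y from
        hall _ (hspan ▸ Submodule.mem_top)
      intro y hy
      induction hy using Submodule.span_induction with
      | mem y hy =>
        obtain ⟨l, rfl⟩ := hy
        fin_cases l
        · exact hav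
        · exact hw
      | zero => simp
      | add y y' _ _ hy hy' => rw [mulVec_add, hy, hy']
      | smul r y _ hy => rw [mulVec_smul, hy]
    have hq : ∀ q ∈ (P : Subgroup (SL(2, F))), ∃ r : F, q.1 *ᵥ v = r • v := by
      intro q hq
      refine hline _ ?_
      have hb : q⁻¹ * a * q ∈ ((R : Subgroup M).map M.subtype) := by
        have := (Subgroup.mem_normalizer_iff.1 (hR (inv_mem hq)) a).1 ⟨_, (z : (R : Subgroup M)).2, rfl⟩
        simpa using this
      obtain ⟨b', hb'R, hb'⟩ := hb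
      have hcm : (q⁻¹ * a * q) * a = a * (q⁻¹ * a * q) := by
        rw [← hb']
        exact congrArg (fun w : (R : Subgroup M) => ((w : M) : SL(2, F))) (Subgroup.mem_center_iff.1 z.2 ⟨b', hb'R⟩)
      set b := q⁻¹ * a * q with hbdef
      obtain ⟨l, hl⟩ := hline (b.1 *ᵥ v) (by
        rw [mulVec_mulVec, ← Matrix.SpecialLinearGroup.coe_mul, ← hcm, Matrix.SpecialLinearGroup.coe_mul,
          ← mulVec_mulVec, hav])
      have hbj : b ^ p ^ j = 1 := by
        rw [hbdef, show q⁻¹ * a * q = q⁻¹ * a * q⁻¹⁻¹ by rw [inv_inv], conj_pow, haj, mul_one, mul_inv_cancel]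
      have hl1 : l = 1 := by
        have hpow : ∀ i : ℕ, (b ^ i).1 *ᵥ v = l ^ i • v := by
          intro i
          induction i with
          | zero => simp
          | succ i ih =>
            rw [pow_succ', Matrix.SpecialLinearGroup.coe_mul, ← mulVec_mulVec, ih, mulVec_smul, hl, smul_smul,
              pow_succ]
        have := hpow (p ^ j)
        rw [hbj, Matrix.SpecialLinearGroup.coe_one, Matrix.one_mulVec] at this
        have h1 : (l ^ p ^ j - 1) • v = 0 := by rw [sub_smul, one_smul, ← this, sub_self]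
        have h2' := sub_eq_zero.1 ((smul_eq_zero.1 h1).resolve_right hv)
        have h3 : (l - 1) ^ p ^ j = 0 := by rw [sub_pow_char_pow, one_pow, h2', sub_self]
        exact sub_eq_zero.1 (eq_zero_of_pow_eq_zero h3)
      rw [hl1, one_smul] at hl
      have e : a = q * b * q⁻¹ := by rw [hbdef]; group
      conv_lhs => rw [e]
      rw [Matrix.SpecialLinearGroup.coe_mul, Matrix.SpecialLinearGroup.coe_mul, ← mulVec_mulVec, ← mulVec_mulVec,
        show (q⁻¹).1 *ᵥ (q.1 *ᵥ v) = v by
          rw [mulVec_mulVec, ← Matrix.SpecialLinearGroup.coe_mul, inv_mul_cancel,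
            Matrix.SpecialLinearGroup.coe_one, Matrix.one_mulVec], hl]
    obtain ⟨S, hS⟩ := (P.isPGroup'.map (SpecialLinearGroup.toGL : SL(2, F) →* GL (Fin 2) F)).exists_le_sylow
    have hirr := irr_two hF S (F ∙ v) ?_
    · rcases hirr with h | h
      · exact hv (Submodule.span_singleton_eq_bot.1 h)
      · have := finrank_span_singleton (K := F) hv
        rw [h, finrank_top] at this
        simp at this
    intro g hg w hw
    obtain ⟨hgS, hgd⟩ := Subgroup.mem_inf.1 hg
    obtain ⟨g', rfl⟩ := slK_eq (F := F) ▸ hgd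
    have hg' : g' ∈ (P : Subgroup (SL(2, F))) := by
      have hle : (P : Subgroup (SL(2, F))) ≤ (S : Subgroup (GL (Fin 2) F)).comap SpecialLinearGroup.toGL :=
        Subgroup.map_le_iff_le_comap.1 hS
      exact (P.3 (S.2.comap_of_injective _ toGL_injective) hle) ▸ hgS
    obtain ⟨r, hr⟩ := hq g' hg'
    obtain ⟨c, rfl⟩ := Submodule.mem_span_singleton.1 hw
    show g'.1 *ᵥ (c • v) ∈ F ∙ v
    rw [mulVec_smul, hr, smul_smul]
    exact Submodule.mem_span_singleton.2 ⟨_, rfl⟩
  intro a ha ha1 ht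
  have hodd : Odd (orderOf a) := hM.of_dvd_nat (Subgroup.orderOf_dvd_natCard M ha)
  have hd : a.1 0 0 * a.1 1 1 - a.1 0 1 * a.1 1 0 = 1 := by rw [← det_fin_two]; exact a.2
  obtain ⟨e, he, hsq⟩ : ∃ e : F, (e = 1 ∨ e = -1) ∧ (a.1 - e • 1) * (a.1 - e • 1) = 0 := by
    rcases eq_or_eq_neg_of_sq_eq_sq (a.1 0 0 + a.1 1 1) 2 (by rw [ht]; norm_num) with h | h
    · refine ⟨1, Or.inl rfl, ?_⟩
      ext i j
      fin_cases i <;> fin_cases j <;> simp [Matrix.mul_apply, Fin.sum_univ_two] <;> grobner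
    · refine ⟨-1, Or.inr rfl, ?_⟩
      ext i j
      fin_cases i <;> fin_cases j <;> simp [Matrix.mul_apply, Fin.sum_univ_two] <;> grobner
  have hp2 : 2 ≤ p := (Fact.out : p.Prime).two_le
  have h0 : (a.1 - e • 1) ^ p = 0 := by
    obtain ⟨m, rfl⟩ := Nat.exists_eq_add_of_le hp2
    rw [pow_add, pow_two, hsq, zero_mul]
  have hap : a.1 ^ p = (e • 1 : Matrix (Fin 2) (Fin 2) F) ^ p := by
    rw [sub_pow_char_of_commute (p := p) (show Commute a.1 (e • (1 : Matrix (Fin 2) (Fin 2) F)) from (Commute.one_right _).smul_right e), sub_eq_zero] at h0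
    exact h0
  have h2p : a ^ p * a ^ p = 1 := by
    refine Subtype.ext ?_
    rw [Matrix.SpecialLinearGroup.coe_mul, Matrix.SpecialLinearGroup.coe_pow, hap, Matrix.SpecialLinearGroup.coe_one]
    rcases he with rfl | rfl
    · simp
    · rw [← pow_add, ← two_mul, pow_mul, pow_two]; simp
  have hap1 : a ^ p = 1 := eq_one_of_sq (hodd.of_dvd_nat (orderOf_pow_dvd p)) h2p
  rcases (Nat.dvd_prime (Fact.out : p.Prime)).1 (orderOf_dvd_of_pow_eq_one hap1) with h | h
  · exact ha1 (orderOf_eq_one_iff.1 h)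
  · exact hpnd (h ▸ Subgroup.orderOf_dvd_natCard M ha)

set_option maxHeartbeats 1000000 in
/-- The theorem for `PSL₂`. -/
theorem pronormal_psl_two (hF : Odd (Fintype.card F))
    {H : Subgroup (Matrix.ProjectiveSpecialLinearGroup (Fin 2) F)} {S : Sylow 2 (Matrix.ProjectiveSpecialLinearGroup (Fin 2) F)}
    (hSH : (S : Subgroup (Matrix.ProjectiveSpecialLinearGroup (Fin 2) F)) ≤ H) : Cfsg.IsPronormal H := by
  haveI : Fact (Nat.Prime 2) := ⟨Nat.prime_two⟩
  refine pronormal_of_odd_normalizer S H hSH fun x₀ hx₀ hn₀ => ?_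
  set mk := QuotientGroup.mk' (Subgroup.center (SL(2, F))) with hmk
  have hcard : Nat.card (Subgroup.center (SL(2, F))) = 2 := by
    rw [card_center_SL, Fintype.card_fin]
    exact Nat.gcd_eq_left (by obtain ⟨c, hc⟩ := hF; omega)
  have hker : IsPGroup 2 mk.ker := by
    rw [hmk, QuotientGroup.ker_mk']; exact IsPGroup.of_card (n := 1) (by simpa using hcard)
  obtain ⟨P, hP⟩ := exists_sylow_comap mk (QuotientGroup.mk'_surjective _) hker S
  -- a lift of odd order
  obtain ⟨x, rfl, hxo⟩ : ∃ x : SL(2, F), mk x = x₀ ∧ Odd (orderOf x) := by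
    obtain ⟨g, rfl⟩ := QuotientGroup.mk'_surjective _ x₀
    obtain ⟨i, j, hij, hi, k, hk⟩ := exists_parts g
    refine ⟨g ^ i, ?_, hi⟩
    have h1 : mk (g ^ j) = 1 := by
      have hdvd : orderOf (mk (g ^ j)) ∣ orderOf (mk g) := by
        rw [map_zpow]
        exact orderOf_dvd_of_mem_zpowers (Subgroup.zpow_mem_zpowers _ _)
      have h2 := orderOf_dvd_of_pow_eq_one (show mk (g ^ j) ^ 2 ^ k = 1 by rw [← map_pow, hk, map_one])
      obtain ⟨l, -, hl⟩ := (Nat.dvd_prime_pow Nat.prime_two).1 h2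
      have := hx₀.of_dvd_nat hdvd
      rw [hl] at this
      rcases Nat.eq_zero_or_pos l with rfl | hl0
      · exact orderOf_eq_one_iff.1 (by simpa using hl)
      · exact absurd (Nat.even_pow.2 ⟨even_two, hl0.ne'⟩) (Nat.not_even_iff_odd.2 this)
    conv_rhs => rw [hij, map_mul, h1, mul_one]
  have hxn : ∀ q ∈ (P : Subgroup (SL(2, F))), x * q * x⁻¹ ∈ (P : Subgroup (SL(2, F))) := by
    intro q hq
    rw [hP, Subgroup.mem_comap] at hq ⊢
    simpa using hn₀ _ hq
  set Hx := H.map (MulAut.conj (mk x)).toMonoidHom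
  by_cases hx1 : x = 1
  · exact ⟨1, one_mem _, by simp [hx1, Hx]⟩
  obtain ⟨⟨a, b, hab, hC, hne⟩, -⟩ := sylow_facts hF P
  have hQp : IsPGroup 2 (P : Subgroup (SL(2, F))) := P.isPGroup'
  set C := Subgroup.zpowers a with hCdef
  let ρ := (P : Subgroup (SL(2, F))).normalizerMonoidHom
  have hmemN : ∀ g : SL(2, F), (∀ q ∈ (P : Subgroup (SL(2, F))), g * q * g⁻¹ ∈ (P : Subgroup (SL(2, F)))) →
      g ∈ Subgroup.normalizer ((P : Subgroup (SL(2, F))) : Set (SL(2, F))) := fun g hg =>
    Subgroup.mem_normalizer_iff_map_conj_eq.2 (Subgroup.eq_of_le_of_card_ge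
      (by rintro _ ⟨q, hq, rfl⟩; exact hg q hq)
      (by rw [Subgroup.card_map_of_injective (MulAut.conj g).injective]))
  have hρ1 : ∀ g : Subgroup.normalizer ((P : Subgroup (SL(2, F))) : Set (SL(2, F))),
      Odd (orderOf (g : SL(2, F))) → ρ g = 1 → (g : SL(2, F)) = 1 := by
    intro g hg h
    have hcm : ∀ q : (P : Subgroup (SL(2, F))), (q : SL(2, F)) * g = g * q := fun q => by
      have := congrArg Subtype.val (DFunLike.congr_fun h q)
      change (g : SL(2, F)) * q * (g : SL(2, F))⁻¹ = q at this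
      rw [mul_inv_eq_iff_eq_mul] at this
      exact this.symm
    exact eq_one_of_sq hg (central_sl (fun e => hne (Subtype.ext e)) (hcm a) (hcm b))
  have hρodd : ∀ g : Subgroup.normalizer ((P : Subgroup (SL(2, F))) : Set (SL(2, F))),
      Odd (orderOf (g : SL(2, F))) → Odd (orderOf (ρ g)) := by
    intro g hg
    refine hg.of_dvd_nat ((orderOf_map_dvd ρ g).trans ?_)
    rw [Subgroup.orderOf_coe]
  set X : Subgroup.normalizer ((P : Subgroup (SL(2, F))) : Set (SL(2, F))) := ⟨x, hmemN x hxn⟩ with hX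
  have hφo : Odd (orderOf (ρ X)) := hρodd X hxo
  have hφ1 : ρ X ≠ 1 := fun h => hx1 (hρ1 X hxo h)
  obtain ⟨hCD, hCE, hDE, hcl, hall⟩ := three_cycle hQp hab hφo hφ1 hC
  set K := H ⊔ Hx with hK
  have hSK : (S : Subgroup (Matrix.ProjectiveSpecialLinearGroup (Fin 2) F)) ≤ K := hSH.trans le_sup_left
  by_cases hy : ∃ y : SL(2, F), mk y ∈ K ∧ Odd (orderOf y) ∧
      (∀ q ∈ (P : Subgroup (SL(2, F))), y * q * y⁻¹ ∈ (P : Subgroup (SL(2, F)))) ∧ y ≠ 1
  · obtain ⟨y, hyK, hyo, hyn, hy1⟩ := hy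
    set Y : Subgroup.normalizer ((P : Subgroup (SL(2, F))) : Set (SL(2, F))) := ⟨y, hmemN y hyn⟩
    obtain ⟨i, hi⟩ := exists_pow_same (φ := ρ X) hQp hab (hρodd Y hyo) (fun h => hy1 (hρ1 Y hyo h)) hC
    set Z := Y ^ i * X with hZ
    obtain ⟨u, v, huv, hu, k, hk⟩ := exists_parts Z
    have hv : ((Z ^ v : _) : SL(2, F)) ∈ (P : Subgroup (SL(2, F))) :=
      mem_sylow_of_normalizes P (fun q hq => (Subgroup.mem_normalizer_iff.1 (Z ^ v).2 q).1 hq) (k := k)
        (by rw [← SubgroupClass.coe_pow, hk, Subgroup.coe_one])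
    have hu1 : Z ^ u = 1 := by
      refine Subtype.ext (hρ1 _ ?_ ?_)
      · rw [Subgroup.orderOf_coe]; exact hu
      · refine eq_one_of_fix_cycTwo hQp hC (hu.of_dvd_nat (orderOf_map_dvd ρ _)) ?_
        have hfixv : C.map (ρ (Z ^ v)).toMonoidHom = C := by
          have e : ρ (Z ^ v) = MulAut.conj (⟨_, hv⟩ : (P : Subgroup (SL(2, F)))) :=
            MulEquiv.ext fun q => Subtype.ext rfl
          rw [e]; exact map_conj_cycTwo hC.2 _
        have hfixZ : C.map (ρ Z).toMonoidHom = C := by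
          rw [hZ, map_mul, map_pow]; exact hi
        have e2 : ρ (Z ^ u) = ρ Z * (ρ (Z ^ v))⁻¹ := by
          rw [eq_mul_inv_iff_mul_eq, ← map_mul, ← huv]
        rw [e2]
        have e3 : (C.map (ρ (Z ^ v))⁻¹.toMonoidHom) = C := by
          conv_lhs => rw [← hfixv, Subgroup.map_map]
          convert Subgroup.map_id C
          ext q; simp
        conv_rhs => rw [← hfixZ, ← e3, Subgroup.map_map]
        rfl
    have hZP : (Z : SL(2, F)) ∈ (P : Subgroup (SL(2, F))) := by
      rw [huv, hu1, one_mul]; exact hv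
    have hxK : mk x ∈ K := by
      have h1 : mk (Z : SL(2, F)) ∈ K := hSK ((SetLike.ext_iff.1 hP _).1 hZP)
      rw [hZ, Subgroup.coe_mul, SubgroupClass.coe_pow, map_mul, map_pow] at h1
      have := K.mul_mem (K.inv_mem (K.pow_mem hyK i)) h1
      rwa [inv_mul_cancel_left] at this
    exact ⟨mk x, hxK, rfl⟩
  push Not at hy
  -- the Sylow subgroup of `K` is central in its normalizer
  set D := C.map (ρ X).toMonoidHom with hD
  have hDc : CycTwo D := cycTwo_map hC _
  have hPc : ∀ p q : (P : Subgroup (SL(2, F))), mk (p : SL(2, F)) * mk q = mk q * mk p := by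
    intro p q
    have hmem : ∀ Z : Subgroup (P : Subgroup (SL(2, F))), Z.index = 2 → p * q * (q * p)⁻¹ ∈ Z := by
      intro Z hZ
      have h := @Subgroup.mul_mem_iff_of_index_two _ _ Z hZ
      rw [h, inv_mem_iff, h, h]
      tauto
    set c := p * q * (q * p)⁻¹ with hc
    obtain ⟨i, hi⟩ := hmem C hC.2
    obtain ⟨j, hj⟩ : c ∈ Subgroup.zpowers (ρ X a) := by
      have := hmem D hDc.2
      rw [hD, hCdef, MonoidHom.map_zpowers] at this
      exact this
    have hnc : (a : SL(2, F)) * (ρ X a : (P : Subgroup (SL(2, F)))) ≠ (ρ X a : (P : Subgroup (SL(2, F)))) * a := by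
      intro e
      apply hne
      have hgen : Subgroup.closure {a, ρ X a} = ⊤ := by
        refine top_le_iff.1 fun y _ => ?_
        set U := Subgroup.closure {a, ρ X a}
        have hCU : C ≤ U := Subgroup.zpowers_le.2 (Subgroup.subset_closure (Or.inl rfl))
        have hdU : ρ X a ∈ U := Subgroup.subset_closure (Or.inr rfl)
        have hdC : ρ X a ∉ C := fun h => hCD (Subgroup.eq_of_le_of_card_ge
          (by rintro _ ⟨w, ⟨l, rfl⟩, rfl⟩; rw [map_zpow]; exact Subgroup.zpow_mem _ h l) (by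
            have h1 := C.card_mul_index
            have h2 := D.card_mul_index
            rw [hC.2] at h1; rw [hDc.2] at h2
            show Nat.card C ≤ Nat.card D
            omega)).symm
        by_cases hy' : y ∈ C
        · exact hCU hy'
        · have : (ρ X a)⁻¹ * y ∈ C :=
            (Subgroup.mul_mem_iff_of_index_two hC.2).2 (iff_of_false (fun h => hdC (inv_mem_iff.1 h)) hy')
          simpa using mul_mem hdU (hCU this)
      have hcen : ∀ y, y * a = a * y := fun y => by
        have : y ∈ Subgroup.closure {a, ρ X a} := hgen ▸ Subgroup.mem_top y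
        induction this using Subgroup.closure_induction with
        | mem z hz =>
          rcases hz with rfl | rfl
          · rfl
          · exact Subtype.ext e.symm
        | one => simp
        | mul z w _ _ hz hw => exact (Commute.mul_left hz hw).eq
        | inv z _ hz => exact (Commute.inv_left hz).eq
      exact (hcen b).symm
    have hsq : (c : SL(2, F)) * c = 1 := by
      refine central_sl hnc ?_ ?_
      · rw [← hi, SubgroupClass.coe_zpow]; exact (Commute.self_zpow _ i).eq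
      · rw [← hj, SubgroupClass.coe_zpow]; exact (Commute.self_zpow _ j).eq
    have hcc : mk (c : SL(2, F)) = 1 := by
      rw [hmk, QuotientGroup.mk'_apply, QuotientGroup.eq_one_iff]
      rcases sl_two_sq_eq_one (two_ne_zero_of_odd_card hF) (g := (c : SL(2, F))) (by rw [pow_two]; exact hsq) with h | h
      · rw [h]; exact one_mem _
      · rw [h]; exact Subgroup.mem_center_iff.2 fun y => by simp
    have : (p : SL(2, F)) * q = c * (q * p) := by
      rw [hc]; simp [mul_assoc]
    rw [← map_mul, this, map_mul, hcc, one_mul, map_mul]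
  have hKn : ∀ k ∈ K, (∀ s ∈ (S : Subgroup (Matrix.ProjectiveSpecialLinearGroup (Fin 2) F)),
      k * s * k⁻¹ ∈ (S : Subgroup (Matrix.ProjectiveSpecialLinearGroup (Fin 2) F))) →
      k ∈ (S : Subgroup (Matrix.ProjectiveSpecialLinearGroup (Fin 2) F)) := by
    intro k hk hkn
    obtain ⟨g, rfl⟩ := QuotientGroup.mk'_surjective _ k
    have hgn : ∀ q ∈ (P : Subgroup (SL(2, F))), g * q * g⁻¹ ∈ (P : Subgroup (SL(2, F))) := by
      intro q hq
      rw [hP, Subgroup.mem_comap] at hq ⊢
      rw [map_mul, map_mul, map_inv]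
      exact hkn _ hq
    obtain ⟨u, v, huv, hu, m, hm⟩ := exists_parts g
    have hzn : ∀ i : ℤ, ∀ q ∈ (P : Subgroup (SL(2, F))), g ^ i * q * (g ^ i)⁻¹ ∈ (P : Subgroup (SL(2, F))) :=
      fun i q hq => (Subgroup.mem_normalizer_iff.1 (Subgroup.zpow_mem _ (hmemN g hgn) i) q).1 hq
    have h1 : g ^ u = 1 := hy _ (by rw [map_zpow]; exact K.zpow_mem hk u) hu (hzn u)
    have h2 : g ∈ (P : Subgroup (SL(2, F))) := by
      rw [huv, h1, one_mul]; exact mem_sylow_of_normalizes P (hzn v) hm
    rw [hP, Subgroup.mem_comap] at h2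
    exact h2
  set SK := S.subtype hSK with hSK'
  have hN : Subgroup.normalizer ((SK : Subgroup K) : Set K) ≤ Subgroup.centralizer ((SK : Subgroup K) : Set K) := by
    intro k hk
    have hkS : (k : Matrix.ProjectiveSpecialLinearGroup (Fin 2) F) ∈ (S : Subgroup _) :=
      hKn k k.2 fun s hs => (Subgroup.mem_normalizer_iff.1 hk ⟨s, hSK hs⟩).1 hs
    refine Subgroup.mem_centralizer_iff.2 fun y hy' => Subtype.ext ?_
    obtain ⟨p, hp⟩ := QuotientGroup.mk'_surjective _ (k : Matrix.ProjectiveSpecialLinearGroup (Fin 2) F)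
    obtain ⟨q, hq⟩ := QuotientGroup.mk'_surjective _ (y : Matrix.ProjectiveSpecialLinearGroup (Fin 2) F)
    rw [← hp] at hkS
    have hyS : mk q ∈ (S : Subgroup _) := by rw [hmk, hq]; exact hy'
    have := hPc ⟨q, by rw [hP]; exact hyS⟩ ⟨p, by rw [hP]; exact hkS⟩
    simp only [hmk, hp, hq] at this
    exact this
  set f := MonoidHom.transferSylow SK hN with hf
  have hcomp := MonoidHom.ker_transferSylow_isComplement' SK hN
  have hOodd : Odd (Nat.card f.ker) := by
    rw [← hcomp.index_eq_card, Nat.odd_iff]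
    have := SK.not_dvd_index
    omega
  set O := f.ker.map K.subtype with hO
  set O' := O.comap mk with hO'
  set Z := Subgroup.center (SL(2, F)) with hZdef
  have hZO : Z ≤ O' := fun z hz => by
    rw [hO', Subgroup.mem_comap, hmk, QuotientGroup.mk'_apply, (QuotientGroup.eq_one_iff z).2 hz]
    exact one_mem _
  haveI : (Z.subgroupOf O').Normal := Subgroup.Normal.subgroupOf inferInstance O'
  have hidx : (Z.subgroupOf O').index = Nat.card f.ker := by
    show Z.relIndex O' = _
    rw [← Subgroup.card_map_of_injective (K := f.ker) K.subtype_injective, ← hO]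
    have h1 := Subgroup.relIndex_mul_index hZO
    have h2 : O'.index = O.index := Subgroup.index_comap_of_surjective O (QuotientGroup.mk'_surjective _)
    have h3 := O.card_mul_index
    rw [show Nat.card (Matrix.ProjectiveSpecialLinearGroup (Fin 2) F) = Z.index from rfl, ← h1, h2] at h3
    exact (Nat.eq_of_mul_eq_mul_right (Nat.pos_of_ne_zero Subgroup.index_ne_zero_of_finite) h3).symm
  obtain ⟨M', hM'⟩ := Subgroup.exists_right_complement'_of_coprime (N := Z.subgroupOf O') (by
    rw [Nat.card_congr (Subgroup.subgroupOfEquivOfLe hZO).toEquiv, hcard, hidx]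
    exact Nat.coprime_two_left.2 hOodd)
  set M := M'.map O'.subtype with hM
  have hMO : M ≤ O' := Subgroup.map_subtype_le _
  have hMc : Odd (Nat.card M) := by
    rw [hM, Subgroup.card_map_of_injective O'.subtype_injective, ← hM'.symm.index_eq_card, hidx]
    exact hOodd
  have hMmem : ∀ g ∈ O', Odd (orderOf g) → g ∈ M := by
    intro g hg hgo
    obtain ⟨⟨⟨z, hz⟩, ⟨m, hm⟩⟩, he⟩ := hM'.2 ⟨g, hg⟩
    have hzc : (z : SL(2, F)) ∈ Z := Subgroup.mem_subgroupOf.1 hz
    have hg' : g = (z : SL(2, F)) * m := (congrArg Subtype.val he).symm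
    have hmM : (m : SL(2, F)) ∈ M := ⟨m, hm, rfl⟩
    have hz1 : (z : SL(2, F)) = 1 := by
      refine eq_one_of_sq ?_ (toGL_injective (by
        rw [map_mul, map_one]
        exact sq_eq_one_of_center_slK (central_of_commute (a := SpecialLinearGroup.toGL (a : SL(2, F)))
          (b := SpecialLinearGroup.toGL (b : SL(2, F)))
          (fun h => hne (Subtype.ext (toGL_injective (by rw [Subgroup.coe_mul, Subgroup.coe_mul, map_mul, map_mul]; exact h))))
          (by rw [← map_mul, Subgroup.mem_center_iff.1 hzc, map_mul])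
          (by rw [← map_mul, Subgroup.mem_center_iff.1 hzc, map_mul])) (toGL_mem_slK _)))
      have hcm : Commute g (m : SL(2, F)) := by
        rw [hg', Commute, SemiconjBy, mul_assoc, ← mul_assoc (m : SL(2, F)), Subgroup.mem_center_iff.1 hzc, mul_assoc]
      have e : (z : SL(2, F)) = g * (m : SL(2, F))⁻¹ := by rw [hg', mul_inv_cancel_right]
      have hmo : Odd (orderOf (m : SL(2, F))) := hMc.of_dvd_nat (Subgroup.orderOf_dvd_natCard M hmM)
      refine (hgo.mul hmo).of_dvd_nat ?_
      rw [e]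
      refine (hcm.inv_right.orderOf_mul_dvd_lcm).trans ?_
      rw [orderOf_inv]
      exact Nat.lcm_dvd (dvd_mul_right _ _) (dvd_mul_left _ _)
    rw [hg', hz1, one_mul]; exact hmM
  have hOn : ∀ k ∈ K, ∀ o ∈ O, k * o * k⁻¹ ∈ O := fun k hk o ho =>
    conj_mem_map_subtype K f.ker (MonoidHom.normal_ker f) hk ho
  have hQM : (P : Subgroup (SL(2, F))) ≤ Subgroup.normalizer (M : Set (SL(2, F))) := by
    intro q hq
    refine mem_normalizer_of_odd O' M hMO hMc hMmem fun o ho => ?_
    have hq' : mk q ∈ K := hSK ((SetLike.ext_iff.1 hP q).1 hq)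
    have ho' : mk o ∈ O := Subgroup.mem_comap.1 ho
    refine Subgroup.mem_comap.2 ?_
    rw [map_mul, map_mul, map_inv]
    exact hOn _ hq' _ ho'
  have htr := trace_ne hF P M hMc hQM
  have hMab := comm_of_odd hF M hMc htr
  have hMone : ∀ m ∈ M, mk m ∈ H → m = 1 := by
    intro m hm hmH
    by_contra hm1
    have hmo : Odd (orderOf m) := hMc.of_dvd_nat (Subgroup.orderOf_dvd_natCard M hm)
    set m' := x * m * x⁻¹ with hm'
    have hm'o : Odd (orderOf m') := by
      rw [hm', show x * m * x⁻¹ = MulAut.conj x m from rfl, MulEquiv.orderOf_eq]; exact hmo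
    have hm'M : m' ∈ M := by
      refine hMmem _ ?_ hm'o
      have hk : mk m' ∈ K := Subgroup.mem_sup_right ⟨mk m, hmH, by simp [hm']⟩
      rw [hO', Subgroup.mem_comap]
      refine ⟨⟨_, hk⟩, ?_, rfl⟩
      show f ⟨_, hk⟩ = 1
      obtain ⟨l, hl⟩ := SK.isPGroup' (f ⟨_, hk⟩)
      have h2 : f ⟨_, hk⟩ ^ orderOf m' = 1 := by
        rw [← map_pow, show (⟨mk m', hk⟩ : K) ^ orderOf m' = 1 from
          Subtype.ext (by rw [SubgroupClass.coe_pow, ← map_pow, pow_orderOf_eq_one, map_one]; rfl), map_one]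
      have := (pow_gcd_eq_one (a := f ⟨_, hk⟩)).2 ⟨h2, hl⟩
      rwa [Nat.Coprime.pow_right l (Nat.coprime_two_right.2 hm'o), pow_one] at this
    have hm'1 : m' ≠ 1 := fun h => hm1 (by rw [hm', mul_inv_eq_one, mul_eq_left] at h; exact h)
    let Cz : SL(2, F) → Subgroup (P : Subgroup (SL(2, F))) := fun w =>
      (Subgroup.centralizer {w}).subgroupOf (P : Subgroup (SL(2, F)))
    have hmemCz : ∀ w, ∀ q : (P : Subgroup (SL(2, F))), q ∈ Cz w ↔ (q : SL(2, F)) * w = w * q := by
      intro w q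
      simp only [Cz, Subgroup.mem_subgroupOf, Subgroup.mem_centralizer_iff, Set.mem_singleton_iff, forall_eq]
      exact eq_comm
    have hns : ∀ w ∈ M, w ≠ 1 → ∀ g h : SL(2, F), g * w = w * g → h * w = w * h → g * h = h * g := by
      intro w hw hw1 g h hg hh
      by_contra hne'
      exact hw1 (eq_one_of_sq (hMc.of_dvd_nat (Subgroup.orderOf_dvd_natCard M hw)) (central_sl hne' hg hh))
    have hidx2 : (Cz m).index = 2 := by
      rw [Subgroup.index_eq_two_iff]
      obtain ⟨q₀, hq₀⟩ : ∃ q, q ∉ Cz m := by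
        by_contra! hall'
        exact hne (Subtype.ext (hns m hm hm1 a b ((hmemCz m a).1 (hall' a)) ((hmemCz m b).1 (hall' b))))
      have hinv : ∀ q, q ∉ Cz m → (q : SL(2, F)) * m * (q : SL(2, F))⁻¹ = m⁻¹ := by
        intro q hq
        have hqm : (q : SL(2, F)) * m * (q : SL(2, F))⁻¹ ∈ M :=
          (Subgroup.mem_normalizer_iff.1 (hQM q.2) m).1 hm
        refine (conj_eq_or_inv (two_ne_zero_of_odd_card hF) (htr m hm hm1) (hMab m hm _ hqm)).resolve_left fun h => hq ?_
        rw [hmemCz]; rwa [mul_inv_eq_iff_eq_mul] at h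
      refine ⟨q₀, fun c => ?_⟩
      have hor : c * q₀ ∈ Cz m ∨ c ∈ Cz m := by
        by_cases hc' : c ∈ Cz m
        · exact Or.inr hc'
        left
        rw [hmemCz, Subgroup.coe_mul]
        have h1 := hinv q₀ hq₀
        have h2 := hinv c hc'
        have h2' : (c : SL(2, F)) * m⁻¹ * (c : SL(2, F))⁻¹ = m := by rw [← conj_inv, h2, inv_inv]
        rw [mul_inv_eq_iff_eq_mul] at h1 h2'
        rw [mul_assoc, h1, ← mul_assoc, h2', mul_assoc]
      rcases hor with h | h
      · exact Or.inl ⟨h, fun h' => hq₀ (by simpa using mul_mem (inv_mem h') h)⟩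
      · exact Or.inr ⟨h, fun h' => hq₀ (by simpa using mul_mem (inv_mem h) h')⟩
    have heq : Cz m' = Cz m := by
      ext q
      rw [hmemCz, hmemCz]
      constructor
      · intro h; exact (hns m' hm'M hm'1 q m h (hMab m hm m' hm'M))
      · intro h; exact (hns m hm hm1 q m' h (hMab m' hm'M m hm))
    have hmap : (Cz m).map (ρ X).toMonoidHom = Cz m' := by
      ext q
      constructor
      · rintro ⟨w, hw, rfl⟩
        have hw' := (hmemCz m w).1 hw
        refine (hmemCz m' _).2 ?_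
        show x * (w : SL(2, F)) * x⁻¹ * (x * m * x⁻¹) = x * m * x⁻¹ * (x * w * x⁻¹)
        rw [show x * (w : SL(2, F)) * x⁻¹ * (x * m * x⁻¹) = x * (w * m) * x⁻¹ by group, hw']
        group
      · intro hq
        have hq' := (hmemCz m' q).1 hq
        refine ⟨(ρ X).symm q, (hmemCz m _).2 ?_, MulEquiv.apply_symm_apply _ _⟩
        have e : ((q : (P : Subgroup (SL(2, F)))) : SL(2, F)) = x * ((ρ X).symm q : (P : Subgroup (SL(2, F)))) * x⁻¹ := by
          conv_lhs => rw [← MulEquiv.apply_symm_apply (ρ X) q]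
          rfl
        rw [e, hm'] at hq'
        have e2 := congrArg (fun t => x⁻¹ * t * x) hq'
        simpa [mul_assoc] using e2
    rw [heq] at hmap
    rcases hall _ hidx2 with h | h | h <;> rw [h] at hmap
    · exact hCD hmap.symm
    · exact hDE hmap.symm
    · exact hCE (hcl.symm.trans hmap)
  have hHS : H = (S : Subgroup (Matrix.ProjectiveSpecialLinearGroup (Fin 2) F)) := by
    refine le_antisymm (fun h hh => ?_) hSH
    obtain ⟨⟨⟨o, ho⟩, ⟨s, hs⟩⟩, he⟩ := hcomp.2 ⟨h, Subgroup.mem_sup_left hh⟩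
    have he' : (o : Matrix.ProjectiveSpecialLinearGroup (Fin 2) F) * s = h := congrArg Subtype.val he
    have hoH : (o : Matrix.ProjectiveSpecialLinearGroup (Fin 2) F) ∈ H := by
      rw [eq_mul_inv_of_mul_eq he']; exact H.mul_mem hh (H.inv_mem (hSH hs))
    obtain ⟨g, hg⟩ := QuotientGroup.mk'_surjective _ (o : Matrix.ProjectiveSpecialLinearGroup (Fin 2) F)
    have hgO : g ∈ O' := by rw [hO', Subgroup.mem_comap, hmk, hg]; exact ⟨o, ho, rfl⟩
    obtain ⟨⟨⟨z, hz⟩, ⟨m, hm⟩⟩, hzm⟩ := hM'.2 ⟨g, hgO⟩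
    have hgm : mk g = mk (m : SL(2, F)) := by
      have e : (z : SL(2, F)) * m = g := congrArg Subtype.val hzm
      rw [← e]
      rw [map_mul, show mk (z : SL(2, F)) = 1 from (QuotientGroup.eq_one_iff _).2 (Subgroup.mem_subgroupOf.1 hz),
        one_mul]
    have := hMone m ⟨m, hm, rfl⟩ (by rw [← hgm, hmk, hg]; exact hoH)
    have ho1 : (o : Matrix.ProjectiveSpecialLinearGroup (Fin 2) F) = 1 := by
      rw [← hg, ← hmk, hgm, this, map_one]
    rw [← he', ho1, one_mul]; exact hs
  refine ⟨1, one_mem _, ?_⟩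
  rw [map_one]
  refine (Subgroup.eq_of_le_of_card_ge ?_ (by rw [Subgroup.card_map_of_injective (MulAut.conj (mk x)).injective])).trans
    (Subgroup.map_id H).symm
  rintro _ ⟨s, hs, rfl⟩
  rw [hHS] at hs ⊢
  exact hn₀ s hs

end Cfsg.Agent.Lib.Pronormal2
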