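import Cfsg.Agent.Lib.Pronormal2.Blocks
import Cfsg.Agent.Lib.Pronormal2.PSLTwo

/-!
Sylow `2`-subgroups of `PSL_{2^w}(q)`, `w ≥ 2`, `q` odd, are self-normalizing.
-/

set_option autoImplicit false
set_option linter.unusedSectionVars false

namespace Cfsg.Agent.Lib.Pronormal2

open Matrix

universe u

variable {F : Type u} [Field F] [Fintype F]

theorem exists_good (hF : Odd (Fintype.card F)) : ∀ v : ℕ, ∃ (ι : Type) (_ : Fintype ι) (_ : DecidableEq ι),
    Fintype.card ι = 2 ^ (v + 1) ∧ Good F ι := by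
  intro v
  induction v with
  | zero => exact ⟨Fin 2, inferInstance, inferInstance, by simp, good_two hF⟩
  | succ v ih =>
    obtain ⟨ι, _, _, hι, hG⟩ := ih
    exact ⟨ι ⊕ ι, inferInstance, inferInstance, by rw [Fintype.card_sum, hι, pow_succ 2 (v + 1), mul_two],
      (good_step hF (by omega) hι hG).1⟩

theorem pronormal_power (hF : Odd (Fintype.card F)) {w : ℕ} (hw : 2 ≤ w)
    {H : Subgroup (Matrix.ProjectiveSpecialLinearGroup (Fin (2 ^ w)) F)}
    {S : Sylow 2 (Matrix.ProjectiveSpecialLinearGroup (Fin (2 ^ w)) F)}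
    (hSH : (S : Subgroup (Matrix.ProjectiveSpecialLinearGroup (Fin (2 ^ w)) F)) ≤ H) : Cfsg.IsPronormal H := by
  haveI : Fact (Nat.Prime 2) := ⟨Nat.prime_two⟩
  haveI : Nonempty (Fin (2 ^ w)) := ⟨⟨0, by positivity⟩⟩
  refine pronormal_of_odd_normalizer S H hSH fun x₀ hx₀ hn₀ => ?_
  suffices h1 : x₀ = 1 from ⟨1, one_mem _, by rw [h1]⟩
  obtain ⟨ι, _, _, hι, hG⟩ := exists_good (F := F) hF (w - 2)
  have hι' : Fintype.card ι = 2 ^ (w - 1) := by rw [hι]; congr 1; omega
  have hO := (good_step hF (by omega) hι' hG).2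
  set mk := QuotientGroup.mk' (Subgroup.center (SpecialLinearGroup (Fin (2 ^ w)) F)) with hmk
  have hker : IsPGroup 2 mk.ker := by
    rw [hmk, QuotientGroup.ker_mk']
    obtain ⟨k, -, hk⟩ := (Nat.dvd_prime_pow Nat.prime_two).1
      (show Nat.card (Subgroup.center (SpecialLinearGroup (Fin (2 ^ w)) F)) ∣ 2 ^ w by
        rw [Classical.card_center_SL, Fintype.card_fin]; exact Nat.gcd_dvd_left _ _)
    exact IsPGroup.of_card (n := k) hk
  obtain ⟨P, hP⟩ := exists_sylow_comap mk (QuotientGroup.mk'_surjective _) hker S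
  obtain ⟨g, rfl⟩ := QuotientGroup.mk'_surjective _ x₀
  obtain ⟨i, j, hij, hi, k, hk⟩ := exists_parts g
  let e : Fin (2 ^ w) ≃ ι ⊕ ι := Fintype.equivOfCardEq (by
    rw [Fintype.card_fin, Fintype.card_sum, hι', ← mul_two, ← pow_succ]; congr 1; omega)
  let φ : SpecialLinearGroup (Fin (2 ^ w)) F →* GL (ι ⊕ ι) F :=
    (Units.mapEquiv (Matrix.reindexAlgEquiv F F e).toMulEquiv).toMonoidHom.comp SpecialLinearGroup.toGL
  have hφ : Function.Injective φ :=
    (Units.mapEquiv (Matrix.reindexAlgEquiv F F e).toMulEquiv).injective.comp Classical.toGL_injective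
  have hφd : ∀ y, φ y ∈ slK F (ι ⊕ ι) := fun y => by
    rw [mem_slK]
    refine Units.ext ?_
    show (Matrix.reindexAlgEquiv F F e y.1).det = 1
    rw [Matrix.det_reindexAlgEquiv]; exact y.2
  have hφs : ∀ z ∈ slK F (ι ⊕ ι), ∃ y, φ y = z := by
    intro z hz
    rw [mem_slK] at hz
    have hd : ((Matrix.reindexAlgEquiv F F e).symm z.1).det = 1 := by
      have := congrArg Units.val hz
      rw [Matrix.reindexAlgEquiv_symm, Matrix.det_reindexAlgEquiv]
      simpa using this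
    exact ⟨⟨_, hd⟩, Units.ext ((Matrix.reindexAlgEquiv F F e).apply_symm_apply z.1)⟩
  obtain ⟨T, hT⟩ := (P.isPGroup'.map φ).exists_le_sylow
  have hTP : ∀ y, φ y ∈ (T : Subgroup (GL (ι ⊕ ι) F)) → y ∈ (P : Subgroup (SpecialLinearGroup (Fin (2 ^ w)) F)) := by
    intro y hy
    exact (P.3 (T.2.comap_of_injective φ hφ) (Subgroup.map_le_iff_le_comap.1 hT)) ▸ hy
  have hgn : ∀ q ∈ (P : Subgroup (SpecialLinearGroup (Fin (2 ^ w)) F)), g ^ i * q * (g ^ i)⁻¹ ∈
      (P : Subgroup (SpecialLinearGroup (Fin (2 ^ w)) F)) := by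
    have hgN : g ∈ Subgroup.normalizer ((P : Subgroup (SpecialLinearGroup (Fin (2 ^ w)) F)) : Set _) := by
      refine Subgroup.mem_normalizer_iff_map_conj_eq.2 (Subgroup.eq_of_le_of_card_ge ?_
        (by rw [Subgroup.card_map_of_injective (MulAut.conj g).injective]))
      rintro _ ⟨q, hq, rfl⟩
      rw [hP, Subgroup.coe_comap] at hq
      rw [hP, Subgroup.mem_comap]
      show mk (g * q * g⁻¹) ∈ _
      rw [map_mul, map_mul, map_inv]
      exact hn₀ _ hq
    exact fun q hq => (Subgroup.mem_normalizer_iff.1 (Subgroup.zpow_mem _ hgN i) q).1 hq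
  have hcen := hO T (φ (g ^ i)) (by rw [orderOf_injective φ hφ]; exact hi) fun r hr => by
    obtain ⟨hrT, hrd⟩ := Subgroup.mem_inf.1 hr
    obtain ⟨y, rfl⟩ := hφs r hrd
    rw [← map_inv, ← map_mul, ← map_mul]
    exact Subgroup.mem_inf.2 ⟨hT ⟨_, hgn y (hTP y hrT), rfl⟩, hφd _⟩
  rw [GeneralLinearGroup.center_eq_range_scalar] at hcen
  obtain ⟨r, hr⟩ := hcen
  have hrd : (r : F) ^ (2 ^ w) = 1 := by
    have h := mem_slK.1 (hφd (g ^ i))
    rw [← hr] at h
    have := congrArg Units.val h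
    simp [GeneralLinearGroup.coe_scalar] at this
    rw [hι'] at this
    have e2 : (2 : ℕ) ^ w = 2 ^ (w - 1) + 2 ^ (w - 1) := by rw [← mul_two, ← pow_succ]; congr 1; omega
    rw [e2]
    exact this
  have hgi : (g ^ i) ^ (2 ^ w) = 1 := by
    refine hφ ?_
    rw [map_pow, ← hr, ← map_pow, map_one, show r ^ (2 ^ w) = 1 from Units.ext (by simpa using hrd), map_one]
  have h1 : g ^ i = 1 := by
    have := (pow_gcd_eq_one (a := g ^ i)).2 ⟨pow_orderOf_eq_one _, hgi⟩
    rwa [Nat.Coprime.pow_right w (Nat.coprime_two_right.2 hi), pow_one] at this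
  have hgk : g ^ 2 ^ k = 1 := by
    rw [hij, h1, one_mul, hk]
  have h2 : mk g ^ 2 ^ k = 1 := by rw [← map_pow, hgk, map_one]
  have := (pow_gcd_eq_one (a := mk g)).2 ⟨pow_orderOf_eq_one _, h2⟩
  rwa [Nat.Coprime.pow_right k (Nat.coprime_two_right.2 hx₀), pow_one] at this

end Cfsg.Agent.Lib.Pronormal2
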